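import Mathlib
import Cfsg.Agent.S0055

set_option autoImplicit false

namespace Cfsg.Agent.Lib.Helper65

/-- Coprime action: if `P / N` is abelian and `P = [P, A]`, then the fixed points of `A` on `P` lie in `N`. -/
theorem inf_centralizer_le_of_commutator_eq {X : Type*} [Group X] [Finite X] (A P N : Subgroup X)
    (hAP : A ≤ Subgroup.normalizer (P : Set X)) (hAN : A ≤ Subgroup.normalizer (N : Set X))
    (hPN : P ≤ Subgroup.normalizer (N : Set X)) (hab : ⁅P, P⁆ ≤ N)
    (hcop : (Nat.card A).Coprime (Nat.card P)) (hPA : ⁅P, A⁆ = P) :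
    P ⊓ Subgroup.centralizer (A : Set X) ≤ N := by
  set M := Subgroup.normalizer (N : Set X) with hM
  have : (N.subgroupOf M).Normal := Subgroup.normal_in_normalizer
  set π := QuotientGroup.mk' (N.subgroupOf M) with hπ
  set V := (P.subgroupOf M).map π with hV
  set A' := (A.subgroupOf M).map π with hA'
  have hVc : IsMulCommutative V := by
    refine ⟨⟨?_⟩⟩
    rintro ⟨_, x, hx, rfl⟩ ⟨_, y, hy, rfl⟩
    apply Subtype.ext
    show π x * π y = π y * π x
    rw [← map_mul, ← map_mul]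
    apply (QuotientGroup.eq).mpr
    rw [Subgroup.mem_subgroupOf]
    apply hab
    have := Subgroup.commutator_mem_commutator (P.inv_mem (Subgroup.mem_subgroupOf.mp hy))
      (P.inv_mem (Subgroup.mem_subgroupOf.mp hx))
    rw [commutatorElement_def] at this
    simpa [mul_assoc] using this
  have hnorm : A' ≤ Subgroup.normalizer (V : Set _) := by
    rw [Subgroup.le_normalizer_iff]
    rintro _ ⟨a, ha, rfl⟩ _ ⟨x, hx, rfl⟩
    refine ⟨a * x * a⁻¹, ?_, by simp⟩
    exact (Subgroup.le_normalizer_iff.mp hAP) _ (Subgroup.mem_subgroupOf.mp ha) _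
      (Subgroup.mem_subgroupOf.mp hx)
  have hc1 : Nat.card V ∣ Nat.card P := by
    have h1 : Nat.card V ∣ Nat.card (P.subgroupOf M) := Subgroup.card_map_dvd _ _
    have h2 : Nat.card (P.subgroupOf M) = Nat.card P :=
      Nat.card_congr (Subgroup.subgroupOfEquivOfLe hPN).toEquiv
    rwa [h2] at h1
  have hc2 : Nat.card A' ∣ Nat.card A := by
    have h1 : Nat.card A' ∣ Nat.card (A.subgroupOf M) := Subgroup.card_map_dvd _ _
    have h2 : Nat.card (A.subgroupOf M) = Nat.card A :=
      Nat.card_congr (Subgroup.subgroupOfEquivOfLe hAN).toEquiv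
    rwa [h2] at h1
  have hcop' : (Nat.card A').Coprime (Nat.card V) :=
    Nat.Coprime.of_dvd hc2 hc1 hcop
  have hcomm : ⁅V, A'⁆ = V := by
    rw [hV, hA', ← Subgroup.map_commutator]
    congr 1
    apply Subgroup.map_injective M.subtype_injective
    rw [Subgroup.map_commutator, Subgroup.map_subgroupOf_eq_of_le hPN,
      Subgroup.map_subgroupOf_eq_of_le hAN, hPA]
  have key := (Cfsg.Agent.S0055.result A' V hnorm hcop').1
  rw [hcomm] at key
  intro c hc
  have hcM : c ∈ M := hPN hc.1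
  have h1 : π ⟨c, hcM⟩ ∈ (V ⊓ Subgroup.centralizer (A' : Set _)) ⊓ V := by
    have hv : π ⟨c, hcM⟩ ∈ V := ⟨⟨c, hcM⟩, Subgroup.mem_subgroupOf.mpr hc.1, rfl⟩
    refine ⟨⟨hv, ?_⟩, hv⟩
    show _ ∈ Subgroup.centralizer (A' : Set (↥M ⧸ N.subgroupOf M))
    rw [Subgroup.mem_centralizer_iff]
    rintro _ ⟨a, ha, rfl⟩
    rw [← map_mul, ← map_mul]
    congr 1
    apply Subtype.ext
    exact (Subgroup.mem_centralizer_iff.mp hc.2) a (Subgroup.mem_subgroupOf.mp ha)
  rw [key, Subgroup.mem_bot] at h1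
  have := (QuotientGroup.eq_one_iff _).mp h1
  exact Subgroup.mem_subgroupOf.mp this

end Cfsg.Agent.Lib.Helper65
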