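import Mathlib
import Cfsg.Agent.Lib.Helper1.Coprime2
import Cfsg.Agent.Lib.Helper1.Fpf3
import Cfsg.Agent.Lib.Helper65.MinAction

set_option autoImplicit false

/-! Coprime action on a group all of whose Sylow subgroups are cyclic (ambient form). -/

namespace Cfsg.Agent.Lib.Helper65

open Cfsg.Agent.Lib.Helper1
open scoped commutatorElement

variable {X : Type*} [Group X]

/-- Commutators of elements normalizing a cyclic subgroup centralize it. -/
theorem commutator_mem_centralizer_of_isCyclic (D : Subgroup X) [hD : IsCyclic D] {x y : X}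
    (hx : x ∈ Subgroup.normalizer (D : Set X)) (hy : y ∈ Subgroup.normalizer (D : Set X)) :
    ⁅x, y⁆ ∈ Subgroup.centralizer (D : Set X) := by
  have hcomm : ∀ f g : MulAut D, f * g = g * f := by
    intro f g
    apply (hD.mulAutMulEquiv D).injective
    rw [map_mul, map_mul, mul_comm]
  have h1 : (⁅(⟨x, hx⟩ : Subgroup.normalizer (D : Set X)), ⟨y, hy⟩⁆) ∈ D.normalizerMonoidHom.ker := by
    rw [MonoidHom.mem_ker, map_commutatorElement, commutatorElement_eq_one_iff_mul_comm]
    exact hcomm _ _
  rw [Subgroup.normalizerMonoidHom_ker, Subgroup.mem_subgroupOf] at h1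
  exact h1

/-- If `K = [K, B]` is a Z-group then `K` is cyclic. -/
theorem isCyclic_of_commutator_eq_of_isZGroup [Finite X] (K B : Subgroup X) [IsZGroup K]
    (hBK : B ≤ Subgroup.normalizer (K : Set X)) (hKB : ⁅K, B⁆ = K) : IsCyclic K := by
  -- the derived subgroup
  set D : Subgroup X := ⁅K, K⁆ with hD
  have hDK : D ≤ K := Subgroup.commutator_le_self K
  have hDmap : D = (commutator K).map K.subtype := by
    rw [hD, commutator_def, Subgroup.map_commutator, ← MonoidHom.range_eq_map, Subgroup.range_subtype]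
  have hDc : IsCyclic D := by
    have h1 : IsCyclic (commutator K) := IsZGroup.isCyclic_commutator K
    rw [hDmap]
    exact isCyclic_of_surjective ((K.subtype.subgroupMap (commutator K)))
      (K.subtype.subgroupMap_surjective _)
  have hKD : K ≤ Subgroup.normalizer (D : Set X) := by
    have := sup_le_normalizer_commutator K K
    rwa [sup_idem] at this
  have hBD : B ≤ Subgroup.normalizer (D : Set X) := by
    have := normalizer_le_normalizer_map_of_characteristic K (commutator K)
    rw [← hDmap] at this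
    exact hBK.trans this
  have hcent : K ≤ Subgroup.centralizer (D : Set X) := by
    conv_lhs => rw [← hKB]
    rw [Subgroup.commutator_le]
    intro k hk b hb
    exact commutator_mem_centralizer_of_isCyclic D (hKD hk) (hBD hb)
  -- `K` is nilpotent of class at most two
  have hnil : Group.IsNilpotent K := by
    have h2 : commutator K ≤ Subgroup.center K := by
      intro z hz
      rw [Subgroup.mem_center_iff]
      intro g
      have hzD : (z : X) ∈ D := by rw [hDmap]; exact ⟨z, hz, rfl⟩
      have := (Subgroup.mem_centralizer_iff.mp (hcent g.2)) z hzD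
      exact Subtype.ext this.symm
    have : Group.IsNilpotent (K ⧸ Subgroup.center K) := by
      have hc : ∀ a b : K ⧸ Subgroup.center K, a * b = b * a := by
        intro a b
        obtain ⟨a, rfl⟩ := QuotientGroup.mk_surjective a
        obtain ⟨b, rfl⟩ := QuotientGroup.mk_surjective b
        rw [← QuotientGroup.mk_mul, ← QuotientGroup.mk_mul, QuotientGroup.eq]
        apply h2
        have : (a * b)⁻¹ * (b * a) = ⁅b⁻¹, a⁻¹⁆ := by rw [commutatorElement_def]; group
        rw [this]
        exact Subgroup.commutator_mem_commutator (Subgroup.mem_top _) (Subgroup.mem_top _)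
      let _ : CommGroup (K ⧸ Subgroup.center K) := { (inferInstance : Group _) with mul_comm := hc }
      infer_instance
    exact Group.of_quotient_center_nilpotent this
  infer_instance

/-- Coprime action of `B` on a Z-group `N`, ambient form. -/
theorem zgroup_coprime_action [Finite X] (N B : Subgroup X) [IsZGroup N]
    (hBN : B ≤ Subgroup.normalizer (N : Set X)) (hcop : (Nat.card B).Coprime (Nat.card N)) :
    IsCyclic (⁅N, B⁆ : Subgroup X) ∧ ⁅N, B⁆ ⊓ Subgroup.centralizer (B : Set X) = ⊥ ∧
    ⁅N, B⁆ ⊔ (N ⊓ Subgroup.centralizer (B : Set X)) = N ∧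
    (Nat.card (⁅N, B⁆ : Subgroup X)).Coprime
      (Nat.card (N ⊓ Subgroup.centralizer (B : Set X) : Subgroup X)) := by
  have hsolv : Group.IsSolvable B ∨ Group.IsSolvable N := Or.inr inferInstance
  set K : Subgroup X := ⁅N, B⁆ with hK
  have hKN : K ≤ N := commutator_le_left_of_le_normalizer hBN
  have hnorm := sup_le_normalizer_commutator N B
  have hNK : N ≤ Subgroup.normalizer (K : Set X) := le_sup_left.trans hnorm
  have hBK : B ≤ Subgroup.normalizer (K : Set X) := le_sup_right.trans hnorm
  have hKK : ⁅K, B⁆ = K := coprime_commutator_commutator B N hBN hcop hsolv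
  have hZ : IsZGroup K := IsZGroup.of_injective (f := Subgroup.inclusion hKN)
    (Subgroup.inclusion_injective hKN)
  have hcyc : IsCyclic K := isCyclic_of_commutator_eq_of_isZGroup K B hBK hKK
  have hcopK : (Nat.card B).Coprime (Nat.card K) :=
    Nat.Coprime.coprime_dvd_right (Subgroup.card_dvd_of_le hKN) hcop
  have hab : ⁅K, K⁆ ≤ (⊥ : Subgroup X) := by
    rw [Subgroup.commutator_le]
    intro a ha b hb
    rw [Subgroup.mem_bot, commutatorElement_eq_one_iff_mul_comm]
    have := (IsCyclic.commGroup (α := K)).mul_comm ⟨a, ha⟩ ⟨b, hb⟩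
    exact congrArg Subtype.val this
  have hinf : K ⊓ Subgroup.centralizer (B : Set X) = ⊥ := by
    rw [eq_bot_iff]
    apply inf_centralizer_le_of_commutator_eq B K ⊥ hBK _ _ hab hcopK hKK
    · intro x _; rw [Subgroup.mem_normalizer_iff]; intro h; simp
    · intro x _; rw [Subgroup.mem_normalizer_iff]; intro h; simp
  have hsup := coprime_commutator_sup_centralizer B N hBN hcop hsolv
  refine ⟨hcyc, hinf, hsup, ?_⟩
  -- coprimality
  rw [Nat.coprime_iff_gcd_eq_one, Nat.eq_one_iff_not_exists_prime_dvd]
  intro p hp hpd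
  have : Fact p.Prime := ⟨hp⟩
  have hpK : p ∣ Nat.card K := hpd.trans (Nat.gcd_dvd_left _ _)
  have hpC : p ∣ Nat.card (N ⊓ Subgroup.centralizer (B : Set X) : Subgroup X) :=
    hpd.trans (Nat.gcd_dvd_right _ _)
  obtain ⟨z, hz⟩ := exists_prime_orderOf_dvd_card' p hpK
  obtain ⟨c, hc⟩ := exists_prime_orderOf_dvd_card' p hpC
  -- work inside `N`
  let z' : N := ⟨z, hKN z.2⟩
  let c' : N := ⟨c, c.2.1⟩
  have hz' : orderOf z' = p := by
    rw [← hz, ← Subgroup.orderOf_coe z, ← Subgroup.orderOf_coe z']
  have hc' : orderOf c' = p := by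
    rw [← hc, ← Subgroup.orderOf_coe c, ← Subgroup.orderOf_coe c']
  have hpz : IsPGroup p (Subgroup.zpowers z') := by
    apply IsPGroup.of_card (n := 1)
    rw [Nat.card_zpowers, hz', pow_one]
  have hpc : IsPGroup p (Subgroup.zpowers c') := by
    apply IsPGroup.of_card (n := 1)
    rw [Nat.card_zpowers, hc', pow_one]
  obtain ⟨P, hP⟩ := hpc.exists_le_sylow
  obtain ⟨Q, hQ⟩ := hpz.exists_le_sylow
  obtain ⟨n, hn⟩ := MulAction.exists_smul_eq N Q P
  have hzP : n * z' * n⁻¹ ∈ (P : Subgroup N) := by
    rw [← hn]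
    rw [Sylow.coe_subgroup_smul, Subgroup.mem_pointwise_smul_iff_inv_smul_mem]
    simp only [MulAut.smul_def, MulAut.conj_inv_apply]
    have : n⁻¹ * (n * z' * n⁻¹) * n = z' := by group
    rw [this]
    exact hQ (Subgroup.mem_zpowers _)
  have hcP : c' ∈ (P : Subgroup N) := hP (Subgroup.mem_zpowers _)
  have hPc : IsCyclic (P : Subgroup N) := inferInstance
  have heq : Subgroup.zpowers (⟨n * z' * n⁻¹, hzP⟩ : (P : Subgroup N)) =
      Subgroup.zpowers (⟨c', hcP⟩ : (P : Subgroup N)) := by
    apply eq_of_card_eq_of_isCyclic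
    rw [Nat.card_zpowers, Nat.card_zpowers, ← Subgroup.orderOf_coe,
      ← Subgroup.orderOf_coe (⟨c', hcP⟩ : (P : Subgroup N))]
    show orderOf (n * z' * n⁻¹) = orderOf c'
    rw [hc', ← hz']
    exact (MulAut.conj n).orderOf_eq z'
  have hmem : (⟨c', hcP⟩ : (P : Subgroup N)) ∈
      Subgroup.zpowers (⟨n * z' * n⁻¹, hzP⟩ : (P : Subgroup N)) := by
    rw [heq]; exact Subgroup.mem_zpowers _
  obtain ⟨k, hk⟩ := Subgroup.mem_zpowers_iff.mp hmem
  have hk' : ((n : X) * z * (n : X)⁻¹) ^ k = (c : X) := by
    have := congrArg (fun t : (P : Subgroup N) => ((t : N) : X)) hk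
    simpa using this
  have hcK : (c : X) ∈ K := by
    rw [← hk']
    apply K.zpow_mem
    exact (Subgroup.le_normalizer_iff.mp hNK) n n.2 _ z.2
  have : (c : X) ∈ K ⊓ Subgroup.centralizer (B : Set X) := ⟨hcK, c.2.2⟩
  rw [hinf, Subgroup.mem_bot] at this
  have hc1 : c = 1 := Subtype.ext this
  rw [hc1, orderOf_one] at hc
  exact hp.one_lt.ne hc

end Cfsg.Agent.Lib.Helper65
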