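import Mathlib
import Cfsg.Agent.Lib.Helper65.IrrCyclic

set_option autoImplicit false

namespace Cfsg.Agent.Lib.Helper65

/-- Ambient form of Schur's lemma for abelian operator groups: if the abelian group `A` acts irreducibly on the
abelian section `Q / R`, then the kernel `B` of the action has cyclic quotient `A / B`. -/
theorem exists_cyclic_quotient_of_chief {X : Type*} [Group X] [Finite X] (A Q R : Subgroup X)
    (hAab : ∀ a ∈ A, ∀ b ∈ A, a * b = b * a)
    (hAQ : A ≤ Subgroup.normalizer (Q : Set X)) (hAR : A ≤ Subgroup.normalizer (R : Set X))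
    (hRQ : R < Q) (hQR : Q ≤ Subgroup.normalizer (R : Set X)) (hab : ⁅Q, Q⁆ ≤ R)
    (hirr : ∀ U : Subgroup X, R ≤ U → U ≤ Q → A ≤ Subgroup.normalizer (U : Set X) → U = R ∨ U = Q) :
    ∃ B : Subgroup X, B ≤ A ∧ (∃ a ∈ A, B ⊔ Subgroup.zpowers a = A) ∧
      ∀ b ∈ B, ∀ x ∈ Q, b * x * b⁻¹ * x⁻¹ ∈ R := by
  classical
  have hRn : (R.subgroupOf Q).Normal := (Subgroup.normal_subgroupOf_iff_le_normalizer hRQ.le).mpr hQR
  set R' := R.subgroupOf Q with hR'
  let c : ↥A →* MulAut ↥Q := (Subgroup.normalizerMonoidHom Q).comp (Subgroup.inclusion hAQ)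
  have hc : ∀ (a : A) (x : Q), ((c a x : Q) : X) = a * x * a⁻¹ := fun _ _ => rfl
  have hmap : ∀ a : A, R'.map ((c a : ↥Q ≃* ↥Q) : ↥Q →* ↥Q) = R' := by
    intro a
    apply Subgroup.eq_of_le_of_card_ge
    · rintro _ ⟨r, hr, rfl⟩
      rw [hR', Subgroup.mem_subgroupOf]
      show ((c a r : Q) : X) ∈ R
      rw [hc]
      exact (Subgroup.le_normalizer_iff.mp hAR) a a.2 _ (Subgroup.mem_subgroupOf.mp hr)
    · have hinj : Function.Injective ((c a : ↥Q ≃* ↥Q) : ↥Q →* ↥Q) := (c a).injective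
      exact (Subgroup.card_map_of_injective hinj).ge
  let ψ : ↥A →* MulAut (↥Q ⧸ R') :=
    { toFun := fun a => QuotientGroup.congr R' R' (c a) (hmap a)
      map_one' := by
        ext x
        induction x using QuotientGroup.induction_on with
        | H x => simp
      map_mul' := by
        intro a b
        ext x
        induction x using QuotientGroup.induction_on with
        | H x => simp }
  have hψ : ∀ (a : A) (x : Q), ψ a (QuotientGroup.mk x) = QuotientGroup.mk (c a x) := fun _ _ => rfl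
  letI : CommGroup (↥Q ⧸ R') :=
    { (inferInstance : Group (↥Q ⧸ R')) with
      mul_comm := by
        intro x y
        induction x using QuotientGroup.induction_on with
        | H x =>
        induction y using QuotientGroup.induction_on with
        | H y =>
        rw [← QuotientGroup.mk_mul, ← QuotientGroup.mk_mul]
        apply (QuotientGroup.eq).mpr
        rw [hR', Subgroup.mem_subgroupOf]
        apply hab
        have := Subgroup.commutator_mem_commutator (Q.inv_mem y.2) (Q.inv_mem x.2)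
        rw [commutatorElement_def] at this
        simpa [mul_assoc] using this }
  have hnt : Nontrivial (↥Q ⧸ R') := by
    obtain ⟨x, hxQ, hxR⟩ := SetLike.exists_of_lt hRQ
    refine ⟨⟨QuotientGroup.mk ⟨x, hxQ⟩, 1, ?_⟩⟩
    intro h
    rw [QuotientGroup.eq_one_iff] at h
    exact hxR (Subgroup.mem_subgroupOf.mp h)
  have hirr' : ∀ W : Subgroup (↥Q ⧸ R'), (∀ a, ∀ w ∈ W, ψ a w ∈ W) → W = ⊥ ∨ W = ⊤ := by
    intro W hW
    set U := (W.comap (QuotientGroup.mk' R')).map Q.subtype with hU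
    have hU1 : R ≤ U := by
      intro r hr
      refine ⟨⟨r, hRQ.le hr⟩, ?_, rfl⟩
      show QuotientGroup.mk' R' ⟨r, hRQ.le hr⟩ ∈ W
      have : QuotientGroup.mk' R' ⟨r, hRQ.le hr⟩ = 1 := by
        rw [QuotientGroup.mk'_apply, QuotientGroup.eq_one_iff]
        exact Subgroup.mem_subgroupOf.mpr hr
      rw [this]
      exact W.one_mem
    have hU2 : U ≤ Q := Subgroup.map_subtype_le _
    have hU3 : A ≤ Subgroup.normalizer (U : Set X) := by
      rw [Subgroup.le_normalizer_iff]
      rintro a ha _ ⟨x, hx, rfl⟩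
      exact ⟨c ⟨a, ha⟩ x, hW ⟨a, ha⟩ _ hx, rfl⟩
    rcases hirr U hU1 hU2 hU3 with h | h
    · left
      rw [eq_bot_iff]
      intro w hw
      induction w using QuotientGroup.induction_on with
      | H x =>
      have h1 : (x : X) ∈ U := ⟨x, hw, rfl⟩
      rw [h] at h1
      rw [Subgroup.mem_bot, QuotientGroup.eq_one_iff]
      exact Subgroup.mem_subgroupOf.mpr h1
    · right
      rw [eq_top_iff]
      intro w _
      induction w using QuotientGroup.induction_on with
      | H x =>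
      have h1 : (x : X) ∈ U := by rw [h]; exact x.2
      obtain ⟨y, hy, hyx⟩ := h1
      have : y = x := Subtype.ext hyx
      rw [← this]
      exact hy
  have hcyc := isCyclic_range_of_irreducible (V := ↥Q ⧸ R') (A := ↥A)
    (fun a b => Subtype.ext (hAab a a.2 b b.2)) ψ hirr'
  obtain ⟨⟨_, a0, rfl⟩, hgen⟩ := hcyc.exists_generator
  refine ⟨ψ.ker.map A.subtype, Subgroup.map_subtype_le _, ⟨a0, a0.2, ?_⟩, ?_⟩
  · apply le_antisymm
    · exact sup_le (Subgroup.map_subtype_le _) (by rw [Subgroup.zpowers_le]; exact a0.2)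
    · intro x hx
      obtain ⟨k, hk⟩ := Subgroup.mem_zpowers_iff.mp (hgen ⟨ψ ⟨x, hx⟩, ⟨x, hx⟩, rfl⟩)
      have hk' : ψ a0 ^ k = ψ ⟨x, hx⟩ := congrArg Subtype.val hk
      have h1 : (⟨x, hx⟩ : A) * a0 ^ (-k) ∈ ψ.ker := by
        rw [MonoidHom.mem_ker, map_mul, map_zpow, zpow_neg, hk', mul_inv_cancel]
      have h2 : x = (((⟨x, hx⟩ : A) * a0 ^ (-k) : A) : X) * (a0 : X) ^ k := by
        simp
      rw [h2]
      exact Subgroup.mul_mem _ (Subgroup.mem_sup_left ⟨_, h1, rfl⟩)
        (Subgroup.mem_sup_right (Subgroup.zpow_mem _ (Subgroup.mem_zpowers _) k))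
  · rintro _ ⟨b, hb, rfl⟩ x hx
    have h1 : ψ b (QuotientGroup.mk ⟨x, hx⟩) = QuotientGroup.mk ⟨x, hx⟩ := by
      rw [MonoidHom.mem_ker.mp hb]; rfl
    rw [hψ] at h1
    have h2 := (QuotientGroup.eq).mp h1.symm
    rw [hR', Subgroup.mem_subgroupOf] at h2
    have h3 : x⁻¹ * ((b : X) * x * (b : X)⁻¹) ∈ R := h2
    have h4 := (Subgroup.le_normalizer_iff.mp hQR) x hx _ h3
    have h5 : x * (x⁻¹ * ((b : X) * x * (b : X)⁻¹)) * x⁻¹ = (b : X) * x * (b : X)⁻¹ * x⁻¹ := by group
    rw [h5] at h4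
    exact h4

end Cfsg.Agent.Lib.Helper65
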