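import Mathlib
import Cfsg.Agent.Lib.Helper65.IrrCyclic

set_option autoImplicit false

namespace Cfsg.Agent.Lib.Helper65.GalAct

theorem ringAut_field {S : Type*} [Field S] [Finite S] (p d : ℕ) [Fact p.Prime]
    [CharP S p] (hS : Nat.card S = p ^ d) : IsCyclic (S ≃+* S) ∧ Nat.card (S ≃+* S) = d := by
  classical
  let _ : Algebra (ZMod p) S := ZMod.algebra S p
  let e : (S ≃ₐ[ZMod p] S) ≃* (S ≃+* S) :=
    { toFun := fun f => f.toRingEquiv
      invFun := fun g => AlgEquiv.ofRingEquiv (f := g) (fun r => by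
        have : (g.toRingHom.comp (algebraMap (ZMod p) S)) = algebraMap (ZMod p) S :=
          Subsingleton.elim _ _
        exact congrArg (fun h : ZMod p →+* S => h r) this)
      left_inv := fun f => by ext; rfl
      right_inv := fun g => by ext; rfl
      map_mul' := fun f g => rfl }
  have hfin : Module.finrank (ZMod p) S = d := by
    have h1 := Module.natCard_eq_pow_finrank (K := ZMod p) (V := S)
    rw [hS, Nat.card_zmod] at h1
    exact (Nat.pow_right_injective (Fact.out : p.Prime).two_le h1).symm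
  have h2 : Nat.card (S ≃ₐ[ZMod p] S) = d := by
    rw [IsGalois.card_aut_eq_finrank, hfin]
  have h3 : IsCyclic (S ≃ₐ[ZMod p] S) := inferInstance
  exact ⟨isCyclic_of_surjective e e.surjective, by rw [← Nat.card_congr e.toEquiv, h2]⟩

theorem ringAut_finite_domain {S : Type*} [CommRing S] [IsDomain S] [Finite S] (p d : ℕ) [Fact p.Prime]
    [CharP S p] (hS : Nat.card S = p ^ d) : IsCyclic (S ≃+* S) ∧ Nat.card (S ≃+* S) = d := by
  classical
  have := Fintype.ofFinite S
  let _ : Field S := Fintype.fieldOfDomain S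
  exact ringAut_field p d hS

universe u

/-- A group normalising an irreducible cyclic group of automorphisms of an elementary abelian group
of order `p ^ d` acts on it through a cyclic group of order `d` (Galois group of the field
generated by the cyclic group). -/
theorem exists_hom_cyclic {V : Type u} [CommGroup V] [Finite V] [Nontrivial V] {Γ : Type*} [Group Γ]
    (ρ : Γ →* MulAut V) (x : Γ) (p d : ℕ) [hpp : Fact p.Prime] (hexp : ∀ v : V, v ^ p = 1)
    (hcard : Nat.card V = p ^ d)
    (hirr : ∀ W : Subgroup V, (∀ w ∈ W, ρ x w ∈ W) → W = ⊥ ∨ W = ⊤)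
    (hnorm : ∀ γ : Γ, ∃ k : ℕ, γ * x * γ⁻¹ = x ^ k) :
    ∃ (A : Type u) (_ : Group A), IsCyclic A ∧ Nat.card A = d ∧
      ∃ Θ : Γ →* A, ∀ γ, Θ γ = 1 → ρ (γ * x * γ⁻¹) = ρ x := by
  classical
  set φ : MulAut V := ρ x with hφ
  set U : Γ →* AddMonoid.End (Additive V) := (autToEnd V).comp ρ with hU
  set T : AddMonoid.End (Additive V) := autToEnd V φ with hT
  have hUx : U x = T := rfl
  have hcomm : ∀ x ∈ ({T} : Set (AddMonoid.End (Additive V))), ∀ y ∈ ({T} : Set (AddMonoid.End (Additive V))),
      x * y = y * x := by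
    rintro _ rfl _ rfl
    rfl
  set S := Subring.closure ({T} : Set (AddMonoid.End (Additive V))) with hS
  letI : CommRing S := Subring.closureCommRingOfComm hcomm
  have hTS : T ∈ S := Subring.subset_closure rfl
  have hinj : ∀ e : S, e ≠ 0 → Function.Injective (e.1 : Additive V →+ Additive V) := by
    intro e he
    let W : Subgroup V :=
      { carrier := {v | e.1 (Additive.ofMul v) = 0}
        mul_mem' := by
          intro x y hx hy
          show e.1 (Additive.ofMul (x * y)) = 0
          rw [ofMul_mul, map_add, hx, hy, add_zero]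
        one_mem' := by
          show e.1 (Additive.ofMul 1) = 0
          rw [ofMul_one, map_zero]
        inv_mem' := by
          intro x hx
          show e.1 (Additive.ofMul x⁻¹) = 0
          rw [ofMul_inv, map_neg, hx, neg_zero] }
    have hW : ∀ w ∈ W, φ w ∈ W := by
      intro w hw
      show e.1 (Additive.ofMul (φ w)) = 0
      have h1 : e * ⟨T, hTS⟩ = ⟨T, hTS⟩ * e := mul_comm _ _
      have h2 : e.1 * T = T * e.1 := congrArg Subtype.val h1
      have h3 := congrArg (fun g : AddMonoid.End (Additive V) => g (Additive.ofMul w)) h2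
      have h4 : e.1 (T (Additive.ofMul w)) = T (e.1 (Additive.ofMul w)) := h3
      have h5 : e.1 (Additive.ofMul w) = 0 := hw
      rw [h5, map_zero] at h4
      exact h4
    rcases hirr W hW with h | h
    · rw [injective_iff_map_eq_zero]
      intro v hv
      have : Additive.toMul v ∈ W := hv
      rw [h, Subgroup.mem_bot] at this
      exact this
    · exfalso
      apply he
      apply Subtype.ext
      ext v
      have : Additive.toMul v ∈ W := by rw [h]; trivial
      exact this
  obtain ⟨v0, hv0⟩ := exists_ne (1 : V)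
  have hnz : NoZeroDivisors S := by
    refine ⟨?_⟩
    intro a b hab
    by_contra hcon
    push Not at hcon
    have h1 := (hinj a hcon.1).comp (hinj b hcon.2)
    have h2 : a.1 * b.1 = 0 := congrArg Subtype.val hab
    have h3 : a.1 (b.1 (Additive.ofMul v0)) = 0 :=
      congrArg (fun g : AddMonoid.End (Additive V) => g (Additive.ofMul v0)) h2
    have h4 : a.1 (b.1 (Additive.ofMul v0)) = a.1 (b.1 0) := by rw [h3, map_zero, map_zero]
    exact hv0 (h1 h4)
  have hnt : Nontrivial S := by
    refine ⟨⟨0, 1, ?_⟩⟩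
    intro h
    have h2 : (0 : AddMonoid.End (Additive V)) = 1 := congrArg Subtype.val h
    have h3 : (0 : Additive V) = Additive.ofMul v0 :=
      congrArg (fun g : AddMonoid.End (Additive V) => g (Additive.ofMul v0)) h2
    exact hv0 h3.symm
  have hdom : IsDomain S := NoZeroDivisors.to_isDomain S
  have hfin : Finite S := by
    apply Finite.of_injective (fun e : S => (e.1 : Additive V → Additive V))
    intro a b hab
    apply Subtype.ext
    exact DFunLike.coe_injective hab
  have hchar : CharP S p := by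
    rw [CharP.charP_iff_prime_eq_zero hpp.out]
    apply Subtype.ext
    ext v
    show ((p : S) : AddMonoid.End (Additive V)) v = 0
    have h1 : ((p : S) : AddMonoid.End (Additive V)) = (p : AddMonoid.End (Additive V)) := by
      simp
    rw [h1, AddMonoid.End.natCast_apply]
    exact hexp (Additive.toMul v)
  let W : Subgroup V :=
    { carrier := {v | ∃ e : S, Additive.toMul (e.1 (Additive.ofMul v0)) = v}
      mul_mem' := by
        rintro _ _ ⟨a, rfl⟩ ⟨b, rfl⟩
        exact ⟨a + b, rfl⟩
      one_mem' := ⟨0, rfl⟩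
      inv_mem' := by
        rintro _ ⟨a, rfl⟩
        exact ⟨-a, rfl⟩ }
  have hW : ∀ w ∈ W, φ w ∈ W := by
    rintro _ ⟨a, rfl⟩
    exact ⟨⟨T, hTS⟩ * a, rfl⟩
  have hWtop : W = ⊤ := by
    rcases hirr W hW with h | h
    · exfalso
      have : v0 ∈ W := ⟨1, rfl⟩
      rw [h, Subgroup.mem_bot] at this
      exact hv0 this
    · exact h
  have hcardS : Nat.card S = p ^ d := by
    rw [← hcard]
    apply Nat.card_congr
    refine Equiv.ofBijective (fun e : S => Additive.toMul (e.1 (Additive.ofMul v0))) ⟨?_, ?_⟩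
    · intro a b hab
      by_contra hne
      have h1 := hinj (a - b) (sub_ne_zero.mpr hne)
      have h2 : (a - b).1 (Additive.ofMul v0) = (a - b).1 0 := by
        rw [map_zero]
        show a.1 (Additive.ofMul v0) - b.1 (Additive.ofMul v0) = 0
        rw [sub_eq_zero]
        exact hab
      exact hv0 (h1 h2)
    · intro v
      have : v ∈ W := by rw [hWtop]; trivial
      exact this
  obtain ⟨hcyc, hcardA⟩ := ringAut_finite_domain (S := S) p d hcardS
  -- conjugation
  have hUU : ∀ γ : Γ, U γ * U γ⁻¹ = 1 := fun γ => by rw [← map_mul, mul_inv_cancel, map_one]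
  have hUU' : ∀ γ : Γ, U γ⁻¹ * U γ = 1 := fun γ => by rw [← map_mul, inv_mul_cancel, map_one]
  have hmem : ∀ (γ : Γ) (s : AddMonoid.End (Additive V)), s ∈ S → U γ * s * U γ⁻¹ ∈ S := by
    intro γ s hs
    induction hs using Subring.closure_induction with
    | mem y hy =>
      obtain rfl : y = T := hy
      obtain ⟨k, hk⟩ := hnorm γ
      rw [← hUx, ← map_mul, ← map_mul, hk, map_pow, hUx]
      exact pow_mem hTS k
    | zero => simp only [mul_zero, zero_mul]; exact zero_mem _
    | one => rw [mul_one, hUU]; exact one_mem _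
    | add a b _ _ iha ihb =>
      rw [mul_add, add_mul]; exact add_mem iha ihb
    | neg a _ iha =>
      have : U γ * -a * U γ⁻¹ = -(U γ * a * U γ⁻¹) := by
        ext v
        show U γ (-(a (U γ⁻¹ v))) = -(U γ (a (U γ⁻¹ v)))
        rw [map_neg]
      rw [this]; exact neg_mem iha
    | mul a b _ _ iha ihb =>
      have : U γ * (a * b) * U γ⁻¹ = (U γ * a * U γ⁻¹) * (U γ * b * U γ⁻¹) := by
        calc U γ * (a * b) * U γ⁻¹ = U γ * a * 1 * b * U γ⁻¹ := by simp only [mul_one, mul_assoc]
          _ = U γ * a * (U γ⁻¹ * U γ) * b * U γ⁻¹ := by rw [hUU']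
          _ = _ := by simp only [mul_assoc]
      rw [this]; exact mul_mem iha ihb
  let c : Γ → (S ≃+* S) := fun γ =>
    { toFun := fun s => ⟨U γ * s.1 * U γ⁻¹, hmem γ s.1 s.2⟩
      invFun := fun s => ⟨U γ⁻¹ * s.1 * U γ, by
        have := hmem γ⁻¹ s.1 s.2
        rwa [inv_inv] at this⟩
      left_inv := fun s => by
        apply Subtype.ext
        show U γ⁻¹ * (U γ * s.1 * U γ⁻¹) * U γ = s.1
        calc U γ⁻¹ * (U γ * s.1 * U γ⁻¹) * U γ = (U γ⁻¹ * U γ) * s.1 * (U γ⁻¹ * U γ) := by
              simp only [mul_assoc]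
          _ = s.1 := by rw [hUU', one_mul, mul_one]
      right_inv := fun s => by
        apply Subtype.ext
        show U γ * (U γ⁻¹ * s.1 * U γ) * U γ⁻¹ = s.1
        calc U γ * (U γ⁻¹ * s.1 * U γ) * U γ⁻¹ = (U γ * U γ⁻¹) * s.1 * (U γ * U γ⁻¹) := by
              simp only [mul_assoc]
          _ = s.1 := by rw [hUU, one_mul, mul_one]
      map_mul' := fun a b => by
        apply Subtype.ext
        show U γ * (a.1 * b.1) * U γ⁻¹ = (U γ * a.1 * U γ⁻¹) * (U γ * b.1 * U γ⁻¹)
        calc U γ * (a.1 * b.1) * U γ⁻¹ = U γ * a.1 * 1 * b.1 * U γ⁻¹ := by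
              simp only [mul_one, mul_assoc]
          _ = U γ * a.1 * (U γ⁻¹ * U γ) * b.1 * U γ⁻¹ := by rw [hUU']
          _ = _ := by simp only [mul_assoc]
      map_add' := fun a b => by
        apply Subtype.ext
        show U γ * (a.1 + b.1) * U γ⁻¹ = (U γ * a.1 * U γ⁻¹) + (U γ * b.1 * U γ⁻¹)
        rw [mul_add, add_mul] }
  let Θ : Γ →* (S ≃+* S) :=
    { toFun := c
      map_one' := by
        apply RingEquiv.ext
        intro s
        apply Subtype.ext
        show U 1 * s.1 * U 1⁻¹ = s.1
        rw [inv_one, map_one, one_mul, mul_one]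
      map_mul' := fun a b => by
        apply RingEquiv.ext
        intro s
        apply Subtype.ext
        show U (a * b) * s.1 * U (a * b)⁻¹ = U a * (U b * s.1 * U b⁻¹) * U a⁻¹
        rw [mul_inv_rev, map_mul, map_mul]
        simp only [mul_assoc] }
  refine ⟨(S ≃+* S), inferInstance, hcyc, hcardA, Θ, ?_⟩
  intro γ hγ
  have h1 := congrArg (fun f : S ≃+* S => (f ⟨T, hTS⟩).1) hγ
  have h2 : U γ * T * U γ⁻¹ = T := h1
  rw [← hUx, ← map_mul, ← map_mul] at h2
  exact autToEnd_injective V h2

end Cfsg.Agent.Lib.Helper65.GalAct
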