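import Mathlib
import Cfsg.Agent.Lib.Helper12.CoreFree
import Cfsg.Agent.Lib.Helper12.MinNormal
import Cfsg.Agent.Lib.Helper65.GalAct
import Cfsg.Agent.Lib.Helper65.IrrPrime

set_option autoImplicit false

/-! Solvable extremely primitive groups. -/

namespace Cfsg.Agent.Lib.Helper65.ExtPrim

open MulAction Cfsg.Agent.Lib.Helper12

/-- the internal data of a solvable extremely primitive group -/
structure EPData {G : Type*} [Group G] (H V N : Subgroup G) (p d q : ℕ) : Prop where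
  Vn : V.Normal
  Vc : ∀ a ∈ V, ∀ b ∈ V, a * b = b * a
  Vexp : ∀ v ∈ V, v ^ p = 1
  Vcard : Nat.card V = p ^ d
  Vne : V ≠ ⊥
  cent : Subgroup.centralizer (V : Set G) ⊓ H = ⊥
  nc : ∀ v ∈ V, v ≠ 1 → ∀ W : Subgroup G, (∀ h ∈ H, h * v * h⁻¹ ∈ W) → V ≤ W
  NH : N ≤ H
  Nn : ∀ h ∈ H, ∀ n ∈ N, h * n * h⁻¹ ∈ N
  Nc : ∀ a ∈ N, ∀ b ∈ N, a * b = b * a
  qp : q.Prime
  Nexp : ∀ n ∈ N, n ^ q = 1
  Nne : N ≠ ⊥
  tr : ∀ v ∈ V, v ≠ 1 → ∀ h ∈ H, ∃ n ∈ N, n * v * n⁻¹ = h * v * h⁻¹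
  fr : ∀ v ∈ V, v ≠ 1 → ∀ n ∈ N, n * v * n⁻¹ = v → n = 1
  md : p ^ d ≡ 1 [MOD q]

theorem exists_data {G : Type*} [Group G] [Finite G] {Ω : Type*} [Fintype Ω] [MulAction G Ω]
    [FaithfulSMul G Ω] [Group.IsSolvable G] (p d : ℕ) (hp : p.Prime) (hcard : Fintype.card Ω = p ^ d)
    (hprim : IsPreprimitive G Ω) (α : Ω) (hH : stabilizer G α ≠ ⊥)
    (hep : ∀ ω : Ω, IsPreprimitive (stabilizer G α) (orbit (stabilizer G α) ω)) :
    ∃ (V N : Subgroup G) (q : ℕ), EPData (stabilizer G α) V N p d q ∧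
      ∀ ω : Ω, ω ≠ α → Nat.card (orbit (stabilizer G α) ω) = Nat.card N := by
  classical
  set H := stabilizer G α with hHdef
  have hHnt : Nontrivial H := (Subgroup.nontrivial_iff_ne_bot H).2 hH
  have hGnt : Nontrivial G := H.subtype_injective.nontrivial
  have hΩnt : Nontrivial Ω := by
    by_contra hcon
    rw [not_nontrivial_iff_subsingleton] at hcon
    obtain ⟨g, hg⟩ := exists_ne (1 : G)
    apply hg
    apply FaithfulSMul.eq_of_smul_eq_smul (α := Ω)
    intro ω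
    exact Subsingleton.elim _ _
  have hcoatom : IsCoatom H := IsPreprimitive.isCoatom_stabilizer_of_isPreprimitive G α
  have hcore : H.normalCore = ⊥ := by
    rw [eq_bot_iff]
    intro g hg
    rw [Subgroup.mem_bot]
    apply FaithfulSMul.eq_of_smul_eq_smul (α := Ω)
    intro ω
    obtain ⟨b, hb⟩ := exists_smul_eq G ω α
    have h1 : b * g * b⁻¹ ∈ H := hg b
    rw [hHdef, mem_stabilizer_iff, mul_smul, mul_smul] at h1
    have h2 : b⁻¹ • α = ω := by rw [← hb, inv_smul_smul]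
    rw [h2] at h1
    rw [one_smul]
    have h3 : g • ω = b⁻¹ • α := by rw [← h1, inv_smul_smul]
    rw [h3, h2]
  obtain ⟨V, hVmin⟩ := exists_minNormal (G := G)
  obtain ⟨r, hr, hVexp, hVc⟩ := hVmin.exists_prime
  have hVn : V.Normal := hVmin.1
  have hVne : V ≠ ⊥ := hVmin.2.1
  have hsup : H ⊔ V = ⊤ := sup_eq_top_of_core_eq_bot hcoatom hcore hVne
  have hcent : Subgroup.centralizer (V : Set G) ⊓ H = ⊥ := centralizer_inf_eq_bot H hcoatom hcore V hVne
  have hVcomm : ∀ a ∈ V, ∀ b ∈ V, a * b = b * a := by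
    intro a ha b hb
    exact congrArg Subtype.val (hVc.is_comm.comm ⟨a, ha⟩ ⟨b, hb⟩)
  have hinf : V ⊓ H = ⊥ := by
    rw [eq_bot_iff, ← hcent]
    exact inf_le_inf_right H (Subgroup.le_centralizer_iff_isMulCommutative.2 hVc)
  -- regularity
  have hdec : ∀ g : G, ∃ h ∈ H, ∃ v ∈ V, h * v = g := by
    intro g
    have : g ∈ H ⊔ V := by rw [hsup]; trivial
    exact Subgroup.mem_sup_of_normal_right.mp this
  have hdec' : ∀ g : G, ∃ v ∈ V, ∃ h ∈ H, v * h = g := by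
    intro g
    have : g ∈ V ⊔ H := by rw [sup_comm, hsup]; trivial
    exact Subgroup.mem_sup_of_normal_left.mp this
  have hreg1 : ∀ ω : Ω, ∃ v ∈ V, v • α = ω := by
    intro ω
    obtain ⟨g, hg⟩ := exists_smul_eq G α ω
    obtain ⟨v, hv, h, hh, rfl⟩ := hdec' g
    refine ⟨v, hv, ?_⟩
    rw [mul_smul] at hg
    rw [hHdef, mem_stabilizer_iff] at hh
    rwa [hh] at hg
  have hreg2 : ∀ v ∈ V, ∀ v' ∈ V, v • α = v' • α → v = v' := by
    intro v hv v' hv' h
    have h1 : v'⁻¹ * v ∈ V ⊓ H := by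
      refine ⟨V.mul_mem (V.inv_mem hv') hv, ?_⟩
      show v'⁻¹ * v ∈ stabilizer G α
      rw [mem_stabilizer_iff, mul_smul, h, inv_smul_smul]
    rw [hinf, Subgroup.mem_bot] at h1
    exact (inv_mul_eq_one.mp h1).symm
  have hVcard : Nat.card V = p ^ d := by
    rw [← hcard, ← Nat.card_eq_fintype_card]
    apply Nat.card_congr
    refine Equiv.ofBijective (fun v : V => (v : G) • α) ⟨?_, ?_⟩
    · intro a b hab
      exact Subtype.ext (hreg2 a a.2 b b.2 hab)
    · intro ω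
      obtain ⟨v, hv, h⟩ := hreg1 ω
      exact ⟨⟨v, hv⟩, h⟩
  have hrp : r = p := by
    obtain ⟨⟨v, hv⟩, hv1'⟩ := Subgroup.ne_bot_iff_exists_ne_one.mp hVne
    have hv1 : v ≠ 1 := fun h => hv1' (Subtype.ext h)
    have : Fact r.Prime := ⟨hr⟩
    have h1 : orderOf v = r := orderOf_eq_prime (hVexp v hv) hv1
    have h2 : orderOf (⟨v, hv⟩ : V) ∣ Nat.card V := orderOf_dvd_natCard _
    rw [Subgroup.orderOf_mk, h1, hVcard] at h2
    exact (Nat.prime_dvd_prime_iff_eq hr hp).mp (hr.dvd_of_dvd_pow h2)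
  subst hrp
  have hequiv : ∀ h ∈ H, ∀ v : G, h • (v • α) = (h * v * h⁻¹) • α := by
    intro h hh v
    have h1 : h⁻¹ • α = α := by
      rw [hHdef, mem_stabilizer_iff] at hh
      rw [inv_smul_eq_iff, hh]
    rw [mul_smul, mul_smul, h1]
  have hnc : ∀ v ∈ V, v ≠ 1 → ∀ W : Subgroup G, (∀ h ∈ H, h * v * h⁻¹ ∈ W) → V ≤ W := by
    intro v hv hv1 W hW
    have h1 : Subgroup.normalClosure {v} ≤ V :=
      Subgroup.normalClosure_le_normal (by simpa using hv)
    have h2 : Subgroup.normalClosure {v} = V := by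
      rcases hVmin.2.2 _ inferInstance h1 with h | h
      · exfalso
        have : v ∈ Subgroup.normalClosure {v} := Subgroup.subset_normalClosure rfl
        rw [h, Subgroup.mem_bot] at this
        exact hv1 this
      · exact h
    rw [← h2, Subgroup.normalClosure, Subgroup.closure_le]
    intro y hy
    rw [Group.mem_conjugatesOfSet_iff] at hy
    obtain ⟨a, rfl, hay⟩ := hy
    obtain ⟨g, hg⟩ := isConj_iff.mp hay
    obtain ⟨h, hh, v', hv', rfl⟩ := hdec g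
    rw [← hg]
    have : h * v' * a * (h * v')⁻¹ = h * a * h⁻¹ := by
      have e : v' * a * v'⁻¹ = a := by rw [hVcomm v' hv' a hv, mul_assoc, mul_inv_cancel, mul_one]
      calc h * v' * a * (h * v')⁻¹ = h * (v' * a * v'⁻¹) * h⁻¹ := by group
        _ = _ := by rw [e]
    rw [this]
    exact hW h hh
  -- minimal normal subgroup of H
  obtain ⟨N0, hN0min⟩ := exists_minNormal (G := H)
  obtain ⟨q, hq, hN0exp, hN0c⟩ := hN0min.exists_prime
  have hN0n : N0.Normal := hN0min.1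
  have hN0ne : N0 ≠ ⊥ := hN0min.2.1
  set N : Subgroup G := N0.map H.subtype with hN
  have hmemN : ∀ n : G, n ∈ N ↔ ∃ hn : n ∈ H, (⟨n, hn⟩ : H) ∈ N0 := by
    intro n
    constructor
    · rintro ⟨x, hx, rfl⟩
      exact ⟨x.2, hx⟩
    · rintro ⟨hn, h⟩
      exact ⟨⟨n, hn⟩, h, rfl⟩
  have hNH : N ≤ H := Subgroup.map_subtype_le N0
  have hNn : ∀ h ∈ H, ∀ n ∈ N, h * n * h⁻¹ ∈ N := by
    rintro h hh _ ⟨n, hn, rfl⟩
    exact ⟨⟨h, hh⟩ * n * ⟨h, hh⟩⁻¹, hN0n.conj_mem n hn ⟨h, hh⟩, rfl⟩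
  have hNc : ∀ a ∈ N, ∀ b ∈ N, a * b = b * a := by
    rintro _ ⟨a, ha, rfl⟩ _ ⟨b, hb, rfl⟩
    have := congrArg Subtype.val (hN0c.is_comm.comm ⟨a, ha⟩ ⟨b, hb⟩)
    exact congrArg Subtype.val this
  have hNexp : ∀ n ∈ N, n ^ q = 1 := by
    rintro _ ⟨n, hn, rfl⟩
    have := hN0exp n hn
    exact congrArg Subtype.val this
  have hNne : N ≠ ⊥ := by
    intro h
    exact hN0ne ((Subgroup.map_eq_bot_iff_of_injective N0 H.subtype_injective).1 h)
  have hmove : ∀ ω, ω ≠ α → ∃ n ∈ N, n • ω ≠ ω := by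
    intro ω hω
    by_contra hcon
    push Not at hcon
    obtain ⟨v, hv, rfl⟩ := hreg1 ω
    have hv1 : v ≠ 1 := by
      rintro rfl
      exact hω (one_smul _ _)
    have hcv : ∀ n ∈ N, n * v * n⁻¹ = v := by
      intro n hn
      apply hreg2 _ (hVn.conj_mem v hv n) _ hv
      rw [← hequiv n (hNH hn), hcon n hn]
    have h1 := hnc v hv hv1 (Subgroup.centralizer (N : Set G)) (by
      intro h hh
      rw [Subgroup.mem_centralizer_iff]
      intro n hn
      have h2 := hcv (h⁻¹ * n * h) (by simpa using hNn h⁻¹ (H.inv_mem hh) n hn)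
      have h3 : n * (h * v * h⁻¹) * n⁻¹ = h * v * h⁻¹ := by
        calc n * (h * v * h⁻¹) * n⁻¹ = h * ((h⁻¹ * n * h) * v * (h⁻¹ * n * h)⁻¹) * h⁻¹ := by group
          _ = _ := by rw [h2]
      exact mul_inv_eq_iff_eq_mul.mp h3)
    apply hNne
    rw [eq_bot_iff, ← hcent]
    exact le_inf (Subgroup.le_centralizer_iff.mp h1) hNH
  have htr : ∀ ω, ω ≠ α → ∀ h ∈ H, ∃ n ∈ N, n • ω = h • ω := by
    intro ω hω h hh
    have := hep ω
    have hfix : fixedPoints N0 (orbit H ω) ≠ Set.univ := by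
      intro hcon
      obtain ⟨n, hn, hne⟩ := hmove ω hω
      obtain ⟨hnH, hn0⟩ := (hmemN n).mp hn
      have h1 : (⟨ω, mem_orbit_self ω⟩ : orbit H ω) ∈ fixedPoints N0 (orbit H ω) := by
        rw [hcon]; trivial
      have h2 := h1 ⟨⟨n, hnH⟩, hn0⟩
      exact hne (congrArg Subtype.val h2)
    have hpt : IsPretransitive N0 (orbit H ω) := IsQuasiPreprimitive.isPretransitive_of_normal hfix
    obtain ⟨n, hn⟩ := hpt.exists_smul_eq ⟨ω, mem_orbit_self ω⟩ ⟨(⟨h, hh⟩ : H) • ω, mem_orbit _ _⟩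
    exact ⟨n.1.1, ⟨n.1, n.2, rfl⟩, congrArg Subtype.val hn⟩
  have hfr : ∀ ω, ω ≠ α → ∀ n ∈ N, n • ω = ω → n = 1 := by
    intro ω hω n hn hnω
    let K : Subgroup H := N0 ⊓ (MulAction.toPermHom H (orbit H ω)).ker
    have hKn : K.Normal := inferInstance
    have hmemK : ∀ m : H, m ∈ N0 → (m : G) • ω = ω → m ∈ K := by
      intro m hm hmω
      refine ⟨hm, ?_⟩
      show m ∈ (MulAction.toPermHom H (orbit H ω)).ker
      rw [MonoidHom.mem_ker]
      ext ⟨y, hy⟩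
      obtain ⟨h, rfl⟩ := hy
      obtain ⟨n', hn', hn'ω⟩ := htr ω hω h.1 h.2
      show (m : G) • ((h : G) • ω) = (h : G) • ω
      rw [← hn'ω, ← mul_smul, hNc m ⟨m, hm, rfl⟩ n' hn', mul_smul, hmω]
    obtain ⟨hnH, hn0⟩ := (hmemN n).mp hn
    rcases hN0min.2.2 K hKn inf_le_left with h | h
    · have := hmemK ⟨n, hnH⟩ hn0 hnω
      rw [h, Subgroup.mem_bot] at this
      exact congrArg Subtype.val this
    · exfalso
      obtain ⟨m, hm, hne⟩ := hmove ω hω
      obtain ⟨hmH, hm0⟩ := (hmemN m).mp hm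
      rw [← h] at hm0
      have h1 : (⟨m, hmH⟩ : H) ∈ (MulAction.toPermHom H (orbit H ω)).ker := hm0.2
      rw [MonoidHom.mem_ker] at h1
      have h2 := congrArg (fun σ : Equiv.Perm (orbit H ω) => (σ ⟨ω, mem_orbit_self ω⟩).1) h1
      exact hne h2
  have horb : ∀ ω, ω ≠ α → Nat.card (orbit H ω) = Nat.card N := by
    intro ω hω
    symm
    apply Nat.card_congr
    refine Equiv.ofBijective
      (fun n : N => (⟨(n : G) • ω, ⟨⟨n.1, hNH n.2⟩, rfl⟩⟩ : orbit H ω)) ⟨?_, ?_⟩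
    · intro a b hab
      have h1 : (a : G) • ω = (b : G) • ω := congrArg Subtype.val hab
      have h2 := hfr ω hω ((b : G)⁻¹ * a) (N.mul_mem (N.inv_mem b.2) a.2)
        (by rw [mul_smul, h1, inv_smul_smul])
      exact Subtype.ext (inv_mul_eq_one.mp h2).symm
    · rintro ⟨y, h, rfl⟩
      obtain ⟨n, hn, hnω⟩ := htr ω hω h.1 h.2
      exact ⟨⟨n, hn⟩, Subtype.ext hnω⟩
  have hmd : r ^ d ≡ 1 [MOD q] := by
    have : Fact q.Prime := ⟨hq⟩
    have hNp : IsPGroup q N := fun n => ⟨1, by rw [pow_one]; exact Subtype.ext (hNexp n n.2)⟩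
    have h1 := hNp.card_modEq_card_fixedPoints Ω
    have h2 : fixedPoints N Ω = {α} := by
      ext ω
      constructor
      · intro hω
        by_contra hne
        obtain ⟨n, hn, h⟩ := hmove ω hne
        exact h (hω ⟨n, hn⟩)
      · rintro rfl n
        exact (hNH n.2 : _ ∈ stabilizer G ω)
    rw [h2, Nat.card_eq_fintype_card, hcard] at h1
    simpa using h1
  have hvα : ∀ v ∈ V, v ≠ 1 → v • α ≠ α := by
    intro v hv hv1 h
    exact hv1 (hreg2 v hv 1 V.one_mem (by rw [h, one_smul]))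
  refine ⟨V, N, q, ⟨hVn, hVcomm, hVexp, hVcard, hVne, hcent, hnc, hNH, hNn, hNc, hq, hNexp, hNne,
    ?_, ?_, hmd⟩, horb⟩
  · intro v hv hv1 h hh
    obtain ⟨n, hn, hnω⟩ := htr (v • α) (hvα v hv hv1) h hh
    refine ⟨n, hn, ?_⟩
    apply hreg2 _ (hVn.conj_mem v hv n) _ (hVn.conj_mem v hv h)
    rw [← hequiv n (hNH hn), ← hequiv h hh, hnω]
  · intro v hv hv1 n hn hnv
    apply hfr (v • α) (hvα v hv hv1) n hn
    rw [hequiv n (hNH hn), hnv]

theorem concl {G : Type*} [Group G] [Finite G] {H V N : Subgroup G} {p d q : ℕ} [hpp : Fact p.Prime]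
    (D : EPData H V N p d q) :
    Nat.card N = q ∧ q ∣ p ^ d - 1 ∧ (∀ i, 0 < i → i < d → ¬ q ∣ p ^ i - 1) ∧
      (∃ h : G, H = N ⊔ Subgroup.zpowers h) ∧ Nat.card H ∣ q * d := by
  classical
  have hVn := D.Vn
  have hq := D.qp
  have : Fact q.Prime := ⟨hq⟩
  letI : CommGroup V :=
    { (inferInstance : Group V) with mul_comm := fun a b => Subtype.ext (D.Vc a a.2 b b.2) }
  have hVnt : Nontrivial V := (Subgroup.nontrivial_iff_ne_bot V).mpr D.Vne
  let ρ : G →* MulAut V := MulAut.conjNormal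
  have hρ : ∀ (g : G) (v : V), ((ρ g v : V) : G) = g * v * g⁻¹ := fun g v => by simp [ρ]
  have hirrG : ∀ W : Subgroup G, W ≤ V → (∀ n ∈ N, ∀ w ∈ W, n * w * n⁻¹ ∈ W) → W = ⊥ ∨ W = V := by
    intro W hWV hW
    by_cases hb : W = ⊥
    · exact Or.inl hb
    right
    obtain ⟨⟨w, hw⟩, hw1'⟩ := Subgroup.ne_bot_iff_exists_ne_one.mp hb
    have hw1 : w ≠ 1 := fun h => hw1' (Subtype.ext h)
    apply le_antisymm hWV
    apply D.nc w (hWV hw) hw1
    intro h hh
    obtain ⟨n, hn, e⟩ := D.tr w (hWV hw) hw1 h hh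
    rw [← e]
    exact hW n hn w hw
  have hirr : ∀ W : Subgroup V, (∀ n ∈ N, ∀ w ∈ W, ρ n w ∈ W) → W = ⊥ ∨ W = ⊤ := by
    intro W hW
    rcases hirrG (W.map V.subtype) (Subgroup.map_subtype_le _) (by
      rintro n hn _ ⟨w, hw, rfl⟩
      exact ⟨ρ n w, hW n hn w hw, hρ n w⟩) with h | h
    · left
      apply Subgroup.map_injective V.subtype_injective
      rw [h, Subgroup.map_bot]
    · right
      apply Subgroup.map_injective V.subtype_injective
      rw [h, ← MonoidHom.range_eq_map, Subgroup.range_subtype]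
  have hρinj : ∀ h ∈ H, ρ h = 1 → h = 1 := by
    intro h hh h1
    have : h ∈ Subgroup.centralizer (V : Set G) ⊓ H := by
      refine ⟨?_, hh⟩
      show h ∈ Subgroup.centralizer (V : Set G)
      rw [Subgroup.mem_centralizer_iff]
      intro v hv
      have h2 := hρ h ⟨v, hv⟩
      rw [h1] at h2
      have h3 : v = h * v * h⁻¹ := h2
      exact (mul_inv_eq_iff_eq_mul.mp h3.symm).symm
    rw [D.cent, Subgroup.mem_bot] at this
    exact this
  let ψ : N →* MulAut V := ρ.comp N.subtype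
  have hcyc : IsCyclic ψ.range :=
    isCyclic_range_of_irreducible (fun a b => Subtype.ext (D.Nc a a.2 b b.2)) ψ (by
      intro W hW
      exact hirr W (fun n hn w hw => hW ⟨n, hn⟩ w hw))
  have hψinj : Function.Injective ψ := by
    rw [injective_iff_map_eq_one]
    intro n hn
    exact Subtype.ext (hρinj n (D.NH n.2) hn)
  have hNcyc : IsCyclic N :=
    isCyclic_of_surjective (MonoidHom.ofInjective hψinj).symm (MonoidHom.ofInjective hψinj).symm.surjective
  obtain ⟨⟨x, hxN⟩, hx⟩ := hNcyc.exists_generator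
  have hNnt : Nontrivial N := (Subgroup.nontrivial_iff_ne_bot N).mpr D.Nne
  have hx1 : x ≠ 1 := by
    rintro rfl
    obtain ⟨y, hy⟩ := exists_ne (1 : N)
    apply hy
    obtain ⟨k, hk⟩ := Subgroup.mem_zpowers_iff.mp (hx y)
    rw [← hk]
    exact one_zpow k
  have hxo : orderOf x = q := orderOf_eq_prime (D.Nexp x hxN) hx1
  have hNcard : Nat.card N = q := by
    rw [← orderOf_eq_card_of_forall_mem_zpowers hx, Subgroup.orderOf_mk, hxo]
  have hpow : ∀ n ∈ N, ∃ k : ℕ, n = x ^ k := by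
    intro n hn
    have h1 := hx ⟨n, hn⟩
    rw [← mem_powers_iff_mem_zpowers] at h1
    obtain ⟨k, hk⟩ := h1
    exact ⟨k, (congrArg Subtype.val hk).symm⟩
  set φ : MulAut V := ρ x with hφ
  have hirrφ : ∀ W : Subgroup V, (∀ w ∈ W, φ w ∈ W) → W = ⊥ ∨ W = ⊤ := by
    intro W hW
    have hk : ∀ (k : ℕ), ∀ w ∈ W, (φ ^ k) w ∈ W := by
      intro k
      induction k with
      | zero => intro w hw; simpa using hw
      | succ k ih =>
        intro w hw
        rw [pow_succ, MulAut.mul_apply]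
        exact ih _ (hW w hw)
    apply hirr W
    intro n hn
    obtain ⟨k, rfl⟩ := hpow n hn
    rw [map_pow]
    exact hk k
  have hφq : φ ^ q = 1 := by rw [hφ, ← map_pow, D.Nexp x hxN, map_one]
  have hpos : ∀ i, 1 ≤ p ^ i := fun i => Nat.one_le_pow _ _ hpp.out.pos
  refine ⟨hNcard, (Nat.modEq_iff_dvd' (hpos d)).mp D.md.symm, ?_, ?_⟩
  · intro i hi hid hdvd
    obtain ⟨m, hm⟩ := hdvd
    have hpi : p ^ i = 1 + q * m := by have := hpos i; omega
    have hφi : φ ^ (p ^ i) = φ := by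
      rw [hpi, pow_add, pow_one, pow_mul, hφq, one_pow, mul_one]
    have h1 := card_le_of_irreducible_aut φ p i hi.ne'
      (fun v => Subtype.ext (by simpa using D.Vexp v.1 v.2)) hφi hirrφ
    rw [D.Vcard] at h1
    exact absurd h1 (not_le.mpr (Nat.pow_lt_pow_right hpp.out.one_lt hid))
  -- centralizer of x in H
  have hCN : ∀ c ∈ H, c * x * c⁻¹ = x → c ∈ N := by
    intro c hc hcx
    have hcN : ∀ n ∈ N, c * n = n * c := by
      intro n hn
      obtain ⟨k, rfl⟩ := hpow n hn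
      have : Commute c x := mul_inv_eq_iff_eq_mul.mp hcx
      exact (this.pow_right k).eq
    obtain ⟨⟨v, hv⟩, hv1'⟩ := exists_ne (1 : V)
    have hv1 : v ≠ 1 := fun h => hv1' (Subtype.ext h)
    obtain ⟨n, hn, e⟩ := D.tr v hv hv1 c hc
    have hc'H : n⁻¹ * c ∈ H := H.mul_mem (H.inv_mem (D.NH hn)) hc
    have hc'v : (n⁻¹ * c) * v = v * (n⁻¹ * c) := by
      have h1 : c * v = n * v * n⁻¹ * c := by rw [e]; group
      calc (n⁻¹ * c) * v = n⁻¹ * (c * v) := by group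
        _ = n⁻¹ * (n * v * n⁻¹ * c) := by rw [h1]
        _ = _ := by group
    have hc'N : ∀ m ∈ N, (n⁻¹ * c) * m = m * (n⁻¹ * c) := by
      intro m hm
      calc (n⁻¹ * c) * m = n⁻¹ * (c * m) := by group
        _ = n⁻¹ * (m * c) := by rw [hcN m hm]
        _ = (n⁻¹ * m) * c := by group
        _ = (m * n⁻¹) * c := by rw [D.Nc _ (N.inv_mem hn) m hm]
        _ = _ := by group
    have hW := hirrG (V ⊓ Subgroup.centralizer {n⁻¹ * c}) inf_le_left (by
      rintro m hm w ⟨hwV, hwc⟩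
      refine ⟨hVn.conj_mem w hwV m, ?_⟩
      have hwc' : w ∈ Subgroup.centralizer {n⁻¹ * c} := hwc
      show m * w * m⁻¹ ∈ Subgroup.centralizer {n⁻¹ * c}
      rw [Subgroup.mem_centralizer_singleton_iff] at hwc' ⊢
      have c1 : Commute m (n⁻¹ * c) := (hc'N m hm).symm
      have c2 : Commute w (n⁻¹ * c) := hwc'
      exact ((c1.mul_left c2).mul_left c1.inv_left).eq)
    have hWV : V ⊓ Subgroup.centralizer {n⁻¹ * c} = V := by
      rcases hW with h | h
      · exfalso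
        have : v ∈ V ⊓ Subgroup.centralizer {n⁻¹ * c} := by
          refine ⟨hv, ?_⟩
          show v ∈ Subgroup.centralizer {n⁻¹ * c}
          rw [Subgroup.mem_centralizer_singleton_iff]
          exact hc'v.symm
        rw [h, Subgroup.mem_bot] at this
        exact hv1 this
      · exact h
    have h1 : n⁻¹ * c ∈ Subgroup.centralizer (V : Set G) ⊓ H := by
      refine ⟨?_, hc'H⟩
      show n⁻¹ * c ∈ Subgroup.centralizer (V : Set G)
      rw [Subgroup.mem_centralizer_iff]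
      intro w hw
      have : w ∈ V ⊓ Subgroup.centralizer {n⁻¹ * c} := by rw [hWV]; exact hw
      have h2 : w ∈ Subgroup.centralizer {n⁻¹ * c} := this.2
      rw [Subgroup.mem_centralizer_singleton_iff] at h2
      exact h2
    rw [D.cent, Subgroup.mem_bot] at h1
    rw [← inv_mul_eq_one.mp h1]
    exact hn
  -- the Galois action
  have hρinj' : ∀ a ∈ H, ∀ b ∈ H, ρ a = ρ b → a = b := by
    intro a ha b hb hab
    have h1 := hρinj (a * b⁻¹) (H.mul_mem ha (H.inv_mem hb)) (by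
      rw [map_mul, map_inv, hab, mul_inv_cancel])
    exact mul_inv_eq_one.mp h1
  obtain ⟨A, _, hAcyc, hAcard, Θ, hΘ⟩ := GalAct.exists_hom_cyclic (ρ.comp H.subtype)
    (⟨x, D.NH hxN⟩ : H) p d (fun v => Subtype.ext (by simpa using D.Vexp v.1 v.2)) D.Vcard hirrφ (by
      intro γ
      obtain ⟨k, hk⟩ := hpow _ (D.Nn γ.1 γ.2 x hxN)
      exact ⟨k, Subtype.ext hk⟩)
  have hker : ∀ γ : H, Θ γ = 1 → (γ : G) ∈ N := by
    intro γ hγ
    apply hCN γ.1 γ.2
    exact hρinj' _ (H.mul_mem (H.mul_mem γ.2 (D.NH hxN)) (H.inv_mem γ.2)) _ (D.NH hxN) (hΘ γ hγ)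
  constructor
  · have hrc : IsCyclic Θ.range := inferInstance
    obtain ⟨⟨_, ⟨h0, rfl⟩⟩, hgen⟩ := hrc.exists_generator
    refine ⟨h0.1, le_antisymm ?_ (sup_le D.NH (by rw [Subgroup.zpowers_le]; exact h0.2))⟩
    intro y hy
    obtain ⟨k, hk⟩ := Subgroup.mem_zpowers_iff.mp (hgen ⟨Θ ⟨y, hy⟩, ⟨_, rfl⟩⟩)
    have hk' : Θ h0 ^ k = Θ ⟨y, hy⟩ := congrArg Subtype.val hk
    have h1 := hker (⟨y, hy⟩ * h0 ^ (-k)) (by
      rw [map_mul, map_zpow, zpow_neg, hk', mul_inv_cancel])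
    have h2 : y = (y * (h0 : G) ^ (-k)) * (h0 : G) ^ k := by group
    rw [h2]
    apply Subgroup.mul_mem
    · apply (le_sup_left : N ≤ N ⊔ Subgroup.zpowers (h0 : G))
      simpa using h1
    · apply (le_sup_right : Subgroup.zpowers (h0 : G) ≤ N ⊔ Subgroup.zpowers (h0 : G))
      exact Subgroup.zpow_mem_zpowers _ _
  · rw [← Subgroup.card_mul_index Θ.ker, Subgroup.index_ker]
    apply Nat.mul_dvd_mul
    · rw [← hNcard, ← Nat.card_congr (Subgroup.subgroupOfEquivOfLe D.NH).toEquiv]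
      apply Subgroup.card_dvd_of_le
      intro γ hγ
      exact hker γ hγ
    · rw [← hAcard]
      exact Subgroup.card_subgroup_dvd_card _

end Cfsg.Agent.Lib.Helper65.ExtPrim
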