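import Mathlib

set_option autoImplicit false

namespace Cfsg.Agent.Lib.Helper65.PSU32

/-- A concrete computable model of the field with four elements: `⟨x, y⟩` stands for `x + y ω`. -/
structure K4 where
  x : ZMod 2
  y : ZMod 2
deriving DecidableEq, Fintype

namespace K4

instance : Zero K4 := ⟨⟨0, 0⟩⟩
instance : One K4 := ⟨⟨1, 0⟩⟩
instance : Add K4 := ⟨fun u v => ⟨u.x + v.x, u.y + v.y⟩⟩
instance : Neg K4 := ⟨fun u => u⟩
instance : Mul K4 := ⟨fun u v => ⟨u.x * v.x + u.y * v.y, u.x * v.y + u.y * v.x + u.y * v.y⟩⟩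

instance : CommRing K4 where
  add_assoc := by decide
  zero_add := by decide
  add_zero := by decide
  add_comm := by decide
  mul_assoc := by decide
  one_mul := by decide
  mul_one := by decide
  left_distrib := by decide
  right_distrib := by decide
  zero_mul := by decide
  mul_zero := by decide
  neg_add_cancel := by decide
  mul_comm := by decide
  nsmul := nsmulRec
  zsmul := zsmulRec

/-- the generator -/
def w : K4 := ⟨0, 1⟩

theorem add_def (u v : K4) : u + v = ⟨u.x + v.x, u.y + v.y⟩ := rfl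
theorem mul_def (u v : K4) :
    u * v = ⟨u.x * v.x + u.y * v.y, u.x * v.y + u.y * v.x + u.y * v.y⟩ := rfl

end K4

variable {F : Type*} [Field F]

/-- the ring homomorphism from the concrete model to a field of characteristic two with a primitive cube
root of unity -/
def phi [CharP F 2] (ω : F) (hω : ω ^ 2 + ω + 1 = 0) : K4 →+* F where
  toFun u := ZMod.castHom (dvd_refl 2) F u.x + ZMod.castHom (dvd_refl 2) F u.y * ω
  map_one' := by
    show ZMod.castHom (dvd_refl 2) F 1 + ZMod.castHom (dvd_refl 2) F 0 * ω = 1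
    simp
  map_zero' := by
    show ZMod.castHom (dvd_refl 2) F 0 + ZMod.castHom (dvd_refl 2) F 0 * ω = 0
    simp
  map_add' u v := by
    rw [K4.add_def]
    simp only [map_add]
    ring
  map_mul' u v := by
    rw [K4.mul_def]
    simp only [map_add, map_mul]
    have h2 : (2 : F) = 0 := CharP.cast_eq_zero F 2
    linear_combination (-(ZMod.castHom (dvd_refl 2) F u.y * ZMod.castHom (dvd_refl 2) F v.y)) * hω +
      (ZMod.castHom (dvd_refl 2) F u.y * ZMod.castHom (dvd_refl 2) F v.y * (1 + ω)) * h2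

theorem phi_w [CharP F 2] (ω : F) (hω : ω ^ 2 + ω + 1 = 0) : phi ω hω K4.w = ω := by
  show ZMod.castHom (dvd_refl 2) F 0 + ZMod.castHom (dvd_refl 2) F 1 * ω = ω
  simp

abbrev M3 := Matrix (Fin 3) (Fin 3) K4

def a0 : M3 := !![1, 1, 1; 1, K4.w, K4.w * K4.w; 1, K4.w * K4.w, K4.w]
def b0 : M3 := !![1, K4.w * K4.w, K4.w * K4.w; K4.w, K4.w, K4.w * K4.w; K4.w, K4.w * K4.w, K4.w]
def d0 : M3 := !![1, 0, 0; 0, K4.w, 0; 0, 0, K4.w * K4.w]
def s0 : M3 := !![0, 0, 1; 1, 0, 0; 0, 1, 0]
def z0 : M3 := !![K4.w, 0, 0; 0, K4.w, 0; 0, 0, K4.w]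

theorem rel_a4 : a0 * a0 * a0 * a0 = 1 := by decide +kernel
theorem rel_bb : b0 * b0 = a0 * a0 := by decide +kernel
theorem rel_ba : b0 * a0 = a0 * a0 * a0 * b0 := by decide +kernel
theorem rel_d3 : d0 * d0 * d0 = 1 := by decide +kernel
theorem rel_s3 : s0 * s0 * s0 = 1 := by decide +kernel
theorem rel_sd : s0 * d0 = z0 * z0 * (d0 * s0) := by decide +kernel
theorem rel_ad : a0 * d0 = s0 * s0 * a0 := by decide +kernel
theorem rel_as : a0 * s0 = d0 * a0 := by decide +kernel
theorem rel_bd : b0 * d0 = z0 * z0 * (d0 * s0 * s0 * b0) := by decide +kernel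
theorem rel_bs : b0 * s0 = z0 * (d0 * d0 * s0 * s0 * b0) := by decide +kernel

theorem det_a0 : a0.det = 1 := by rw [Matrix.det_fin_three]; decide +kernel
theorem det_b0 : b0.det = 1 := by rw [Matrix.det_fin_three]; decide +kernel
theorem det_d0 : d0.det = 1 := by rw [Matrix.det_fin_three]; decide +kernel
theorem det_s0 : s0.det = 1 := by rw [Matrix.det_fin_three]; decide +kernel
theorem det_z0 : z0.det = 1 := by rw [Matrix.det_fin_three]; decide +kernel

theorem gram_a0 : a0.transpose * a0.map (fun x => x ^ 2) = 1 := by decide +kernel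
theorem gram_b0 : b0.transpose * b0.map (fun x => x ^ 2) = 1 := by decide +kernel
theorem gram_d0 : d0.transpose * d0.map (fun x => x ^ 2) = 1 := by decide +kernel
theorem gram_s0 : s0.transpose * s0.map (fun x => x ^ 2) = 1 := by decide +kernel
theorem gram_z0 : z0.transpose * z0.map (fun x => x ^ 2) = 1 := by decide +kernel

theorem entry_aa : (a0 * a0) 1 2 = 1 := by decide +kernel
theorem entry_s : s0 1 0 = 1 := by decide +kernel
theorem entry_sd : (s0 * d0) 1 0 = 1 := by decide +kernel
theorem entry_sdd : (s0 * (d0 * d0)) 1 0 = 1 := by decide +kernel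
theorem entry_d00 : d0 0 0 = 1 := by decide +kernel
theorem entry_d11 : d0 1 1 = K4.w := by decide +kernel
theorem z0_eq : z0 = Matrix.scalar (Fin 3) K4.w := by decide +kernel

end Cfsg.Agent.Lib.Helper65.PSU32
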