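import Mathlib
import Cfsg.Agent.Lib.Helper59.TwoGroupRecog

set_option autoImplicit false

namespace Cfsg.Agent.Lib.Helper65.PSU32

theorem mem_normalizer_of_conj_mem {Ω : Type*} [Group Ω] {P : Subgroup Ω} [Finite P] {k : Ω}
    (h : ∀ y ∈ P, k * y * k⁻¹ ∈ P) : k ∈ Subgroup.normalizer (P : Set Ω) := by
  have hinj : Function.Injective (fun y : P => (⟨k * y * k⁻¹, h y y.2⟩ : P)) := by
    intro a b hab
    have := congrArg Subtype.val hab
    ext
    exact mul_left_cancel (mul_right_cancel this)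
  have hsurj := Finite.surjective_of_injective hinj
  rw [Subgroup.mem_normalizer_iff]
  intro y
  refine ⟨h y, fun hy => ?_⟩
  obtain ⟨z, hz⟩ := hsurj ⟨_, hy⟩
  have := congrArg Subtype.val hz
  have h2 : (z : Ω) = y := mul_left_cancel (mul_right_cancel this)
  rw [← h2]; exact z.2

/-- the subgroup `{D ^ i * S ^ j}` generated by two commuting elements -/
def gen2 {G : Type*} [Group G] (D S : G) (hDS : Commute D S) : Subgroup G where
  carrier := {x | ∃ i j : ℤ, x = D ^ i * S ^ j}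
  one_mem' := ⟨0, 0, by simp⟩
  mul_mem' := by
    rintro _ _ ⟨i, j, rfl⟩ ⟨k, l, rfl⟩
    refine ⟨i + k, j + l, ?_⟩
    have h1 : S ^ j * D ^ k = D ^ k * S ^ j := ((hDS.zpow_zpow k j).eq).symm
    calc D ^ i * S ^ j * (D ^ k * S ^ l) = D ^ i * (S ^ j * D ^ k) * S ^ l := by group
      _ = D ^ i * (D ^ k * S ^ j) * S ^ l := by rw [h1]
      _ = D ^ (i + k) * S ^ (j + l) := by rw [zpow_add, zpow_add]; group
  inv_mem' := by
    rintro _ ⟨i, j, rfl⟩
    refine ⟨-i, -j, ?_⟩
    have h1 : S ^ (-j) * D ^ (-i) = D ^ (-i) * S ^ (-j) := ((hDS.zpow_zpow (-i) (-j)).eq).symm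
    rw [mul_inv_rev, ← zpow_neg, ← zpow_neg, h1]

theorem struct72 {G : Type*} [Group G] [Finite G] (hcard : Nat.card G = 72) (A B D S : G)
    (hA4 : A ^ 4 = 1) (hA2 : A ^ 2 ≠ 1) (hBB : B * B = A ^ 2) (hBA : B * A * B⁻¹ = A⁻¹)
    (hD3 : D ^ 3 = 1) (hS3 : S ^ 3 = 1) (hDS : Commute D S)
    (hAD : A * D * A⁻¹ = S ^ 2) (hAS : A * S * A⁻¹ = D)
    (hD1 : D ≠ 1) (hS1 : S ≠ 1) (hSD : S ≠ D) (hSD2 : S ≠ D ^ 2) :
    ∃ (N : Subgroup G) (_ : N.Normal), Nat.card N = 9 ∧ (∀ x ∈ N, x ^ 3 = 1) ∧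
      Nonempty (G ⧸ N ≃* QuaternionGroup 2) := by
  classical
  have : Fact (Nat.Prime 3) := ⟨Nat.prime_three⟩
  set N := gen2 D S hDS with hN
  have hexp : ∀ x ∈ N, x ^ 3 = 1 := by
    rintro _ ⟨i, j, rfl⟩
    rw [(hDS.zpow_zpow i j).mul_pow, ← zpow_natCast, ← zpow_natCast, ← zpow_mul, ← zpow_mul,
      mul_comm i, mul_comm j, zpow_mul, zpow_mul]
    simp [hD3, hS3]
  have hDN : D ∈ N := ⟨1, 0, by simp⟩
  have hSN : S ∈ N := ⟨0, 1, by simp⟩
  have hp : IsPGroup 3 N := by
    intro g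
    refine ⟨1, ?_⟩
    apply Subtype.ext
    simpa using hexp g g.2
  obtain ⟨k, hk⟩ := hp.exists_card_eq
  have hdvd : Nat.card N ∣ 72 := hcard ▸ Subgroup.card_subgroup_dvd_card N
  have hoD : orderOf D = 3 := orderOf_eq_prime hD3 hD1
  have hSz : S ∉ Subgroup.zpowers D := by
    intro h
    obtain ⟨m, hm⟩ := Subgroup.mem_zpowers_iff.mp h
    rw [← zpow_mod_orderOf, hoD] at hm
    have h1 : 0 ≤ m % 3 := Int.emod_nonneg _ (by norm_num)
    have h2 : m % 3 < 3 := Int.emod_lt_of_pos _ (by norm_num)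
    have h3 : m % 3 = 0 ∨ m % 3 = 1 ∨ m % 3 = 2 := by omega
    push_cast at hm
    rcases h3 with h | h | h
    · rw [h, zpow_zero] at hm; exact hS1 hm.symm
    · rw [h, zpow_one] at hm; exact hSD hm.symm
    · rw [h] at hm; exact hSD2 (by rw [← hm]; exact (zpow_natCast D 2))
  have hgt : 3 < Nat.card N := by
    by_contra hle
    have hzN : Subgroup.zpowers D ≤ N := by
      rw [Subgroup.zpowers_le]; exact hDN
    have := Subgroup.eq_of_le_of_card_ge hzN (by rw [Nat.card_zpowers, hoD]; omega)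
    exact hSz (this ▸ hSN)
  have hN9 : Nat.card N = 9 := by
    rw [hk] at hgt hdvd ⊢
    have hk2 : k ≤ 2 := by
      by_contra hcon
      have h27 : 3 ^ 3 ∣ 3 ^ k := pow_dvd_pow 3 (by omega)
      have := h27.trans hdvd
      norm_num at this
    interval_cases k
    · norm_num at hgt
    · norm_num at hgt
    · norm_num
  have hidx : N.index = 8 := by
    have := N.card_mul_index
    rw [hN9, hcard] at this
    omega
  let P : Sylow 3 G := hp.toSylow (by rw [hidx]; norm_num)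
  have hPN : (P : Subgroup G) = N := rfl
  have hAn : A ∈ Subgroup.normalizer (N : Set G) := by
    apply mem_normalizer_of_conj_mem
    rintro _ ⟨i, j, rfl⟩
    refine ⟨j, 2 * i, ?_⟩
    have h1 : A * (D ^ i * S ^ j) * A⁻¹ = (A * D * A⁻¹) ^ i * (A * S * A⁻¹) ^ j := by
      rw [conj_zpow, conj_zpow]; group
    rw [h1, hAD, hAS, ← zpow_natCast, ← zpow_mul]
    exact ((hDS.zpow_zpow j _).eq).symm
  have hoA : orderOf A = 4 := by
    have := orderOf_eq_prime_pow (p := 2) (n := 1) (x := A) (by simpa using hA2) (by simpa using hA4)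
    simpa using this
  set M := Subgroup.normalizer (N : Set G) with hM
  have h9 : 9 ∣ Nat.card M := hN9 ▸ Subgroup.card_dvd_of_le Subgroup.le_normalizer
  have h4 : 4 ∣ Nat.card M := by
    have := orderOf_dvd_natCard (⟨A, hAn⟩ : M)
    rwa [Subgroup.orderOf_mk, hoA] at this
  have h36 : 36 ∣ Nat.card M := by
    have : Nat.Coprime 4 9 := by norm_num
    exact this.mul_dvd_of_dvd_of_dvd h4 h9
  have hMidx : M.index = 1 := by
    have h1 := M.card_mul_index
    rw [hcard] at h1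
    obtain ⟨c, hc⟩ := h36
    rw [hc] at h1
    have h2 : c * M.index = 2 := by nlinarith
    have h3 : Nat.card (Sylow 3 G) = M.index := by
      rw [Sylow.card_eq_index_normalizer P]
      rfl
    have h5 := card_sylow_modEq_one 3 G
    rw [h3] at h5
    have h6 : M.index ∣ 2 := Dvd.intro_left _ h2
    rcases (Nat.dvd_prime Nat.prime_two).mp h6 with h | h
    · exact h
    · rw [h] at h5
      exact absurd h5 (by decide)
  have hNn : N.Normal := by
    rw [← Subgroup.normalizer_eq_top_iff]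
    exact Subgroup.index_eq_one.mp hMidx
  refine ⟨N, hNn, hN9, hexp, ?_⟩
  have hA2N : A ^ 2 ∉ N := by
    intro h
    have h1 := hexp _ h
    apply hA2
    calc A ^ 2 = (A ^ 2) ^ 3 * (A ^ 4)⁻¹ := by group
      _ = 1 := by rw [h1, hA4]; simp
  set A' : G ⧸ N := QuotientGroup.mk' N A with hA'
  set B' : G ⧸ N := QuotientGroup.mk' N B with hB'
  have hA'2 : A' ^ 2 ≠ 1 := by
    rw [hA', ← map_pow]
    intro h
    exact hA2N ((QuotientGroup.eq_one_iff _).mp h)
  have hA'4 : A' ^ 4 = 1 := by rw [hA', ← map_pow, hA4, map_one]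
  have hoA' : orderOf A' = 2 * 2 := by
    have := orderOf_eq_prime_pow (p := 2) (n := 1) (x := A') (by simpa using hA'2) (by simpa using hA'4)
    simpa using this
  have hc' : B' * A' * B'⁻¹ = A'⁻¹ := by
    rw [hA', hB', ← map_inv, ← map_mul, ← map_mul, hBA, map_inv]
  apply Cfsg.Agent.Lib.Helper59.quaternion_recog 2 (by norm_num) A' B' hoA'
  · rw [hA', hB', ← map_mul, hBB, map_pow]
  · exact hc'
  · intro h
    obtain ⟨m, hm⟩ := Subgroup.mem_zpowers_iff.mp h
    have hcomm : B' * A' = A' * B' := by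
      rw [← hm]
      exact ((Commute.refl A').zpow_left m).eq
    apply hA'2
    have h1 : A' = A'⁻¹ := by
      rw [← hc', hcomm]; group
    calc A' ^ 2 = A' * A' := pow_two A'
      _ = A' * A'⁻¹ := by rw [← h1]
      _ = 1 := mul_inv_cancel A'
  · rw [← Subgroup.index_eq_card, hidx]

end Cfsg.Agent.Lib.Helper65.PSU32
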