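import Cfsg.Agent.Lib.Helper50.SUCenter
import Cfsg.Agent.Lib.Helper65.K4
import Cfsg.Agent.Lib.Helper65.Struct72
import Cfsg.Agent.S0282

set_option autoImplicit false

namespace Cfsg.Agent.Lib.Helper65.PSU32

open Matrix Cfsg.Agent.Lib.Helper50.Herm

variable {F : Type*} [Field F] [Fintype F]

theorem charTwo (hF : Fintype.card F = 4) : CharP F 2 := by
  obtain ⟨p, hp⟩ := CharP.exists F
  obtain ⟨n, hpp, hn⟩ := FiniteField.card F p
  rw [hF] at hn
  have h1 : p ∣ 2 ^ 2 := by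
    have : p ∣ p ^ (n : ℕ) := dvd_pow_self p n.pos.ne'
    rw [← hn] at this
    exact this
  have h2 : p = 2 := (Nat.prime_dvd_prime_iff_eq hpp Nat.prime_two).mp (hpp.dvd_of_dvd_pow h1)
  exact h2 ▸ hp

theorem exists_omega (hF : Fintype.card F = 4) : ∃ ω : F, ω ^ 2 + ω + 1 = 0 := by
  classical
  have h1 : ∃ x : F, x ∉ ({0, 1} : Finset F) := by
    by_contra hcon
    push Not at hcon
    have : Fintype.card F ≤ ({0, 1} : Finset F).card :=
      Finset.card_le_card (fun x _ => hcon x)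
    have h2 : ({0, 1} : Finset F).card ≤ 2 := Finset.card_le_two
    omega
  obtain ⟨x, hx⟩ := h1
  simp only [Finset.mem_insert, Finset.mem_singleton, not_or] at hx
  refine ⟨x, ?_⟩
  have h4 : x ^ 4 = x := by
    have := FiniteField.pow_card x
    rwa [hF] at this
  have h5 : x * ((x - 1) * (x ^ 2 + x + 1)) = 0 := by linear_combination h4
  rcases mul_eq_zero.mp h5 with h | h
  · exact absurd h hx.1
  · rcases mul_eq_zero.mp h with h | h
    · exact absurd (sub_eq_zero.mp h) hx.2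
    · exact h

section

variable (hK : Fintype.card F = 2 ^ 2) [CharP F 2] (ω : F) (hω : ω ^ 2 + ω + 1 = 0)

theorem gram_map (M : M3) (h : M.transpose * M.map (fun x => x ^ 2) = 1) :
    ((phi ω hω).mapMatrix M)ᵀ * ((phi ω hω).mapMatrix M).map (frobQ hK) = 1 := by
  have e1 : ((phi ω hω).mapMatrix M).map (frobQ hK) = (phi ω hω).mapMatrix (M.map (fun x => x ^ 2)) := by
    ext i j
    simp [frobQ_apply]
  have e2 : ((phi ω hω).mapMatrix M)ᵀ = (phi ω hω).mapMatrix M.transpose := by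
    ext i j
    rfl
  rw [e1, e2, ← map_mul, h, map_one]

/-- the element of `SU(3,2)` with a given concrete matrix -/
def el (M : M3) (hd : M.det = 1) (hg : M.transpose * M.map (fun x => x ^ 2) = 1) : ↥(Cfsg.SU 3 F 2) :=
  mkSU hK 3 ((phi ω hω).mapMatrix M) (by rw [← RingHom.map_det, hd, map_one]) (gram_map hK ω hω M hg)

theorem el_val (M : M3) (hd : M.det = 1) (hg : M.transpose * M.map (fun x => x ^ 2) = 1) :
    ((el hK ω hω M hd hg).1 : Matrix (Fin 3) (Fin 3) F) = (phi ω hω).mapMatrix M := rfl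

end

theorem su_ext {x y : ↥(Cfsg.SU 3 F 2)}
    (h : (x.1 : Matrix (Fin 3) (Fin 3) F) = (y.1 : Matrix (Fin 3) (Fin 3) F)) : x = y :=
  Subtype.ext (Subtype.ext h)

theorem su_mul (x y : ↥(Cfsg.SU 3 F 2)) :
    ((x * y).1 : Matrix (Fin 3) (Fin 3) F) = (x.1 : Matrix (Fin 3) (Fin 3) F) * (y.1 : Matrix (Fin 3) (Fin 3) F) :=
  rfl

theorem su_one : ((1 : ↥(Cfsg.SU 3 F 2)).1 : Matrix (Fin 3) (Fin 3) F) = 1 := rfl

theorem main (hF : Fintype.card F = 4) :
    ∃ (N : Subgroup (Cfsg.PSU 3 F 2)) (_ : N.Normal), Nat.card N = 9 ∧ (∀ x ∈ N, x ^ 3 = 1) ∧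
      Nonempty (Cfsg.PSU 3 F 2 ⧸ N ≃* QuaternionGroup 2) := by
  have hK : Fintype.card F = 2 ^ 2 := by rw [hF]; norm_num
  have := charTwo hF
  obtain ⟨ω, hω⟩ := exists_omega hF
  have hcard := (Cfsg.Agent.S0282.result hF).1
  have : Finite (Cfsg.PSU 3 F 2) := Nat.finite_of_card_ne_zero (by rw [hcard]; norm_num)
  obtain ⟨a, ha⟩ : ∃ a : ↥(Cfsg.SU 3 F 2), (a.1 : Matrix (Fin 3) (Fin 3) F) = (phi ω hω).mapMatrix a0 :=
    ⟨el hK ω hω a0 det_a0 gram_a0, rfl⟩
  obtain ⟨b, hb⟩ : ∃ a : ↥(Cfsg.SU 3 F 2), (a.1 : Matrix (Fin 3) (Fin 3) F) = (phi ω hω).mapMatrix b0 :=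
    ⟨el hK ω hω b0 det_b0 gram_b0, rfl⟩
  obtain ⟨d, hd⟩ : ∃ a : ↥(Cfsg.SU 3 F 2), (a.1 : Matrix (Fin 3) (Fin 3) F) = (phi ω hω).mapMatrix d0 :=
    ⟨el hK ω hω d0 det_d0 gram_d0, rfl⟩
  obtain ⟨s, hs⟩ : ∃ a : ↥(Cfsg.SU 3 F 2), (a.1 : Matrix (Fin 3) (Fin 3) F) = (phi ω hω).mapMatrix s0 :=
    ⟨el hK ω hω s0 det_s0 gram_s0, rfl⟩
  obtain ⟨z, hz⟩ : ∃ a : ↥(Cfsg.SU 3 F 2), (a.1 : Matrix (Fin 3) (Fin 3) F) = (phi ω hω).mapMatrix z0 :=
    ⟨el hK ω hω z0 det_z0 gram_z0, rfl⟩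
  have r_a4 : a * a * a * a = 1 :=
    su_ext (by simp only [su_mul, su_one, ha, ← map_mul, rel_a4, map_one])
  have r_bb : b * b = a * a :=
    su_ext (by simp only [su_mul, ha, hb, ← map_mul, rel_bb])
  have r_ba : b * a = a * a * a * b :=
    su_ext (by simp only [su_mul, ha, hb, ← map_mul, rel_ba])
  have r_d3 : d * d * d = 1 :=
    su_ext (by simp only [su_mul, su_one, hd, ← map_mul, rel_d3, map_one])
  have r_s3 : s * s * s = 1 :=
    su_ext (by simp only [su_mul, su_one, hs, ← map_mul, rel_s3, map_one])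
  have r_sd : s * d = z * z * (d * s) :=
    su_ext (by simp only [su_mul, hs, hd, hz, ← map_mul, rel_sd])
  have r_ad : a * d = s * s * a :=
    su_ext (by simp only [su_mul, hs, hd, ha, ← map_mul, rel_ad])
  have r_as : a * s = d * a :=
    su_ext (by simp only [su_mul, hs, hd, ha, ← map_mul, rel_as])
  have hzc : z ∈ Subgroup.center ↥(Cfsg.SU 3 F 2) := by
    rw [Subgroup.mem_center_iff]
    intro g
    apply su_ext
    rw [su_mul, su_mul, hz, z0_eq]
    have e : (phi ω hω).mapMatrix (Matrix.scalar (Fin 3) K4.w) = Matrix.scalar (Fin 3) (phi ω hω K4.w) := by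
      ext i j
      by_cases hij : i = j
      · subst hij; simp
      · simp [hij]
    rw [e]
    exact ((Matrix.scalar_commute _ (fun r => Commute.all _ r) _).eq).symm
  have nc : ∀ x : ↥(Cfsg.SU 3 F 2), ∀ i j : Fin 3, i ≠ j → (x.1 : Matrix (Fin 3) (Fin 3) F) i j ≠ 0 →
      x ∉ Subgroup.center ↥(Cfsg.SU 3 F 2) :=
    fun x i j hij h hx => h (center_offdiag hK 3 x hx i j hij)
  have n_aa : a * a ∉ Subgroup.center ↥(Cfsg.SU 3 F 2) := by
    apply nc _ 1 2 (by decide)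
    rw [su_mul, ha, ← map_mul, RingHom.mapMatrix_apply, Matrix.map_apply, entry_aa, map_one]
    exact one_ne_zero
  have n_s : s ∉ Subgroup.center ↥(Cfsg.SU 3 F 2) := by
    apply nc _ 1 0 (by decide)
    rw [hs, RingHom.mapMatrix_apply, Matrix.map_apply, entry_s, map_one]
    exact one_ne_zero
  have n_sd : s * d ∉ Subgroup.center ↥(Cfsg.SU 3 F 2) := by
    apply nc _ 1 0 (by decide)
    rw [su_mul, hs, hd, ← map_mul, RingHom.mapMatrix_apply, Matrix.map_apply, entry_sd, map_one]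
    exact one_ne_zero
  have n_sdd : s * (d * d) ∉ Subgroup.center ↥(Cfsg.SU 3 F 2) := by
    apply nc _ 1 0 (by decide)
    rw [su_mul, su_mul, hs, hd, ← map_mul, ← map_mul, RingHom.mapMatrix_apply, Matrix.map_apply, entry_sdd,
      map_one]
    exact one_ne_zero
  have n_d : d ∉ Subgroup.center ↥(Cfsg.SU 3 F 2) := by
    intro hx
    have h1 := center_diag hK 3 d hx 0 1
    rw [hd, RingHom.mapMatrix_apply, Matrix.map_apply, Matrix.map_apply, entry_d00, entry_d11, map_one,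
      phi_w] at h1
    rw [← h1] at hω
    have h2 : (2 : F) = 0 := CharP.cast_eq_zero F 2
    have h3 : (1 : F) = 0 := by linear_combination hω - h2
    exact one_ne_zero h3
  let π := QuotientGroup.mk' (Subgroup.center ↥(Cfsg.SU 3 F 2))
  have hπ1 : ∀ x, π x = 1 ↔ x ∈ Subgroup.center ↥(Cfsg.SU 3 F 2) := fun x => QuotientGroup.eq_one_iff x
  have hπz : π z = 1 := (hπ1 z).mpr hzc
  have hA4 : π a ^ 4 = 1 := by
    rw [← map_pow, ← map_one π, ← r_a4]
    congr 1
    simp only [pow_succ, pow_zero, one_mul]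
  have hD3 : π d ^ 3 = 1 := by
    rw [← map_pow, ← map_one π, ← r_d3]
    congr 1
    simp only [pow_succ, pow_zero, one_mul]
  have hS3 : π s ^ 3 = 1 := by
    rw [← map_pow, ← map_one π, ← r_s3]
    congr 1
    simp only [pow_succ, pow_zero, one_mul]
  apply struct72 hcard (π a) (π b) (π d) (π s) hA4
  · rw [← map_pow, pow_two]
    exact fun h => n_aa ((hπ1 _).mp h)
  · rw [← map_mul, r_bb, map_mul, pow_two]
  · rw [← map_mul, r_ba, mul_inv_eq_iff_eq_mul, map_mul]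
    congr 1
    symm
    apply inv_eq_of_mul_eq_one_right
    rw [← map_mul, ← map_one π, ← r_a4]
    congr 1
    group
  · exact hD3
  · exact hS3
  · show π d * π s = π s * π d
    rw [← map_mul π s d, r_sd, map_mul, map_mul, hπz, one_mul, one_mul, map_mul]
  · rw [← map_mul, r_ad, mul_inv_eq_iff_eq_mul, map_mul, map_mul, pow_two]
  · rw [← map_mul, r_as, mul_inv_eq_iff_eq_mul, map_mul]
  · exact fun h => n_d ((hπ1 _).mp h)
  · exact fun h => n_s ((hπ1 _).mp h)
  · intro h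
    apply n_sdd
    rw [← hπ1, map_mul, map_mul, h, ← hD3]
    simp only [pow_succ, pow_zero, one_mul, mul_assoc]
  · intro h
    apply n_sd
    rw [← hπ1, map_mul, h, ← hD3]
    simp only [pow_succ, pow_zero, one_mul, mul_assoc]

end Cfsg.Agent.Lib.Helper65.PSU32
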