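import Mathlib
import Cfsg.Agent.Lib.Helper65.SU3Struct
import Cfsg.Agent.Lib.Helper50.HermIso

/-!
# Automorphisms of the Sylow 2-subgroup of `SU₃(q)` whose square is trivial modulo the centre
fix the centre pointwise (a character sum argument: the norm form is of minus type).
-/

set_option autoImplicit false

namespace Cfsg.Agent.Lib.Helper65.SU3E

open Cfsg.Agent.Lib.Helper50 Cfsg.Agent.Lib.Helper50.Herm

section field

variable {F : Type*} [Field F] [Fintype F] {q : ℕ}

/-- `x ↦ x^q` as an additive map -/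
def frobAdd (hK : Fintype.card F = q ^ 2) : F →+ F := AddMonoidHom.mk' (fun x => x ^ q) (add_pow_q hK)

theorem key (hK : Fintype.card F = q ^ 2) (h2 : (2 : F) = 0) (T : F →+ F) (hT : ∀ a, T (T a) = a)
    (L : F → F) (hL : ∀ c d, c ^ q = c → d ^ q = d → L (c + d) = L c + L d)
    (hN : ∀ a, L (a * a ^ q) = T a * T a ^ q) (c0 : F) (hc0 : c0 ^ q = c0) : L c0 = c0 := by
  classical
  by_contra hne
  have hq := two_le_q hK
  have hd : c0 + L c0 ≠ 0 := by
    intro h
    apply hne
    linear_combination h - c0 * h2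
  obtain ⟨ψ0, hψ0⟩ := AddChar.exists_apply_ne_zero.2 hd
  obtain ⟨μ, hμ⟩ := exists_trace_one hK h2
  have htr : ∀ x : F, (x + x ^ q) ^ q = x + x ^ q := fun x => by
    rw [add_pow_q hK, pow_q_sq hK, add_comm]
  let D : F →+ F := AddMonoidHom.mk' (fun x => (x + x ^ q) + L (x + x ^ q)) (by
    intro x y
    have : (x + y) + (x + y) ^ q = (x + x ^ q) + (y + y ^ q) := by rw [add_pow_q hK]; ring
    rw [this, hL _ _ (htr x) (htr y)]; ring)
  let Ψ : AddChar F ℂ := ψ0.compAddMonoidHom D
  have hΨ : ∀ x, Ψ x = ψ0 ((x + x ^ q) + L (x + x ^ q)) := fun x => rfl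
  have hΨμ : ∀ c, c ^ q = c → Ψ (μ * c) = ψ0 (c + L c) := by
    intro c hc
    have : μ * c + (μ * c) ^ q = c := by rw [mul_pow, hc, ← add_mul, hμ, one_mul]
    rw [hΨ, this]
  obtain ⟨x0, hx0⟩ := exists_trace_eq hK h2 c0 hc0
  have hΨx0 : Ψ x0 ≠ 1 := by rw [hΨ, hx0]; exact hψ0
  -- the fixed points of `T`
  let Dt : F →+ F := T + AddMonoidHom.id F
  let W : AddSubgroup F := Dt.ker
  have hW : ∀ w, w ∈ W ↔ T w = w := by
    intro w
    rw [AddMonoidHom.mem_ker]
    change T w + w = 0 ↔ _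
    constructor
    · intro h; linear_combination h - w * h2
    · intro h; rw [h]; exact add_self' h2 w
  have hWcard : q ≤ Nat.card W := by
    have h1 : Dt.range ≤ W := by
      rintro _ ⟨a, rfl⟩
      rw [hW]
      change T (T a + a) = T a + a
      rw [map_add, hT, add_comm]
    have h3 : Nat.card W * Nat.card Dt.range = q ^ 2 := by
      rw [← AddSubgroup.index_ker, AddSubgroup.card_mul_index, Nat.card_eq_fintype_card, hK]
    have h4 : Nat.card Dt.range ≤ Nat.card W := AddSubgroup.card_le_of_le h1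
    by_contra hlt
    push Not at hlt
    nlinarith
  let f : F → ℂ := fun a => Ψ (μ * (a * a ^ q))
  have hfW : ∀ w ∈ W, f w = 1 := by
    intro w hw
    change Ψ _ = 1
    rw [hΨμ _ (norm_fixed hK w), hN, (hW w).1 hw, add_self' h2, AddChar.map_zero_eq_one]
  have hfadd : ∀ a, ∀ w ∈ W, f (a + w) = f a * Ψ (a ^ q * w) := by
    intro a w hw
    have e : μ * ((a + w) * (a + w) ^ q) =
        μ * (a * a ^ q) + μ * (w * w ^ q) + μ * (a ^ q * w + (a ^ q * w) ^ q) := by
      rw [add_pow_q hK, mul_pow, pow_q_sq hK]; ring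
    change Ψ _ = Ψ _ * Ψ _
    rw [e, AddChar.map_add_eq_mul, AddChar.map_add_eq_mul]
    have e1 : Ψ (μ * (w * w ^ q)) = 1 := hfW w hw
    have e2 : Ψ (μ * (a ^ q * w + (a ^ q * w) ^ q)) = Ψ (a ^ q * w) := by
      rw [hΨμ _ (htr _), hΨ]
    rw [e1, e2, mul_one]
  have hS1 : ∀ w ∈ W, ∑ a, f a * Ψ (a ^ q * w) = ∑ a, f a := by
    intro w hw
    rw [← Fintype.sum_equiv (Equiv.addRight w) (fun a => f (a + w)) f (fun a => rfl)]
    exact Finset.sum_congr rfl (fun a _ => (hfadd a w hw).symm)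
  have : Fintype W := Fintype.ofFinite W
  let P : Finset F := Finset.univ.filter (fun a => ∀ w ∈ W, Ψ (a ^ q * w) = 1)
  have hin : ∀ a, ∑ w : W, Ψ (a ^ q * w.1) = if a ∈ P then (Nat.card W : ℂ) else 0 := by
    intro a
    let φ : AddChar W ℂ := Ψ.compAddMonoidHom ((AddMonoidHom.mulLeft (a ^ q)).comp W.subtype)
    have h1 := AddChar.sum_eq_ite φ
    have h3 : (φ = 0) ↔ a ∈ P := by
      rw [AddChar.eq_zero_iff, Finset.mem_filter]
      constructor
      · intro h; exact ⟨Finset.mem_univ _, fun w hw => h ⟨w, hw⟩⟩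
      · intro h w; exact h.2 w.1 w.2
    have h4 : ∑ w : W, Ψ (a ^ q * w.1) = ∑ w, φ w := rfl
    rw [h4, h1]
    simp only [h3, Nat.card_eq_fintype_card]
  have hS2 : (Nat.card W : ℂ) * ∑ a, f a = (Nat.card W : ℂ) * ∑ a ∈ P, f a := by
    calc (Nat.card W : ℂ) * ∑ a, f a = ∑ w : W, ∑ a, f a * Ψ (a ^ q * w.1) := by
          rw [Finset.sum_congr rfl (fun (w : W) _ => hS1 w.1 w.2)]
          simp [Nat.card_eq_fintype_card]
      _ = ∑ a, f a * ∑ w : W, Ψ (a ^ q * w.1) := by
          rw [Finset.sum_comm]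
          exact Finset.sum_congr rfl (fun a _ => (Finset.mul_sum _ _ _).symm)
      _ = ∑ a, (if a ∈ P then f a * (Nat.card W : ℂ) else 0) := by
          apply Finset.sum_congr rfl
          intro a _
          rw [hin]
          split_ifs <;> simp
      _ = (Nat.card W : ℂ) * ∑ a ∈ P, f a := by
          rw [Finset.sum_ite_mem, Finset.univ_inter, Finset.mul_sum]
          exact Finset.sum_congr rfl (fun a _ => mul_comm _ _)
  have hPW : (P.card : ℂ) * (Nat.card W : ℂ) = (q : ℂ) ^ 2 := by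
    have h1 : ∑ a, ∑ w : W, Ψ (a ^ q * w.1) = (P.card : ℂ) * (Nat.card W : ℂ) := by
      rw [Finset.sum_congr rfl (fun a _ => hin a), Finset.sum_ite_mem, Finset.univ_inter, Finset.sum_const,
        nsmul_eq_mul]
    have h3 : ∀ w : W, ∑ a, Ψ (a ^ q * w.1) = if w = 0 then ((q : ℂ) ^ 2) else 0 := by
      intro w
      let φ : AddChar F ℂ := Ψ.compAddMonoidHom ((AddMonoidHom.mulRight w.1).comp (frobAdd hK))
      have h4 := AddChar.sum_eq_ite φ
      have h5 : φ = 0 ↔ w = 0 := by
        constructor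
        · intro h
          by_contra hw
          have hw' : w.1 ≠ 0 := fun h0 => hw (Subtype.ext h0)
          rw [AddChar.eq_zero_iff] at h
          have h6 := h ((x0 / w.1) ^ q)
          change Ψ (((x0 / w.1) ^ q) ^ q * w.1) = 1 at h6
          rw [pow_q_sq hK, div_mul_cancel₀ _ hw'] at h6
          exact hΨx0 h6
        · intro h
          rw [AddChar.eq_zero_iff]
          intro a
          change Ψ (a ^ q * w.1) = 1
          rw [h]
          simp
      have h7 : ∑ a, Ψ (a ^ q * w.1) = ∑ a, φ a := rfl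
      rw [h7, h4]
      simp only [h5, hK]
      push_cast
      rfl
    rw [← h1, Finset.sum_comm, Finset.sum_congr rfl (fun w _ => h3 w)]
    simp
  have hPW' : P.card * Nat.card W = q ^ 2 := by exact_mod_cast hPW
  let Wf : Finset F := Finset.univ.filter (fun a => a ∈ W)
  have hWf : Wf.card = Nat.card W := by
    rw [Nat.card_eq_fintype_card, Fintype.card_subtype]
  have hsub : Wf ⊆ P := by
    intro a ha
    have ha' : a ∈ W := (Finset.mem_filter.1 ha).2
    rw [Finset.mem_filter]
    refine ⟨Finset.mem_univ _, fun w hw => ?_⟩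
    have h1 := hfadd a w hw
    rw [hfW a ha', hfW _ (W.add_mem ha' hw), one_mul] at h1
    exact h1.symm
  have hle : Nat.card W ≤ P.card := by rw [← hWf]; exact Finset.card_le_card hsub
  have hWq : Nat.card W = q := by
    apply le_antisymm _ hWcard
    by_contra hlt
    push Not at hlt
    nlinarith
  have hPq : P.card = q := by
    rw [hWq] at hPW'
    have : P.card * q = q * q := by rw [hPW']; ring
    exact Nat.eq_of_mul_eq_mul_right (by omega) this
  have hPeq : Wf = P := Finset.eq_of_subset_of_card_le hsub (by rw [hWf, hWq, hPq])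
  have hSq : ∑ a, f a = (q : ℂ) := by
    have h0 : (Nat.card W : ℂ) ≠ 0 := by rw [hWq]; exact_mod_cast (by omega : q ≠ 0)
    rw [mul_left_cancel₀ h0 hS2, ← hPeq,
      Finset.sum_congr rfl (fun a ha => hfW a (Finset.mem_filter.1 ha).2), Finset.sum_const, hWf, hWq]
    simp
  -- the other evaluation, through the fibres of the norm
  let K0 : AddSubgroup F := (frobAdd hK - AddMonoidHom.id F).ker
  have hK0 : ∀ c, c ∈ K0 ↔ c ^ q = c := by
    intro c
    rw [AddMonoidHom.mem_ker]
    change c ^ q - c = 0 ↔ _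
    exact sub_eq_zero
  have : Fintype K0 := Fintype.ofFinite K0
  let χ : AddChar K0 ℂ := Ψ.compAddMonoidHom ((AddMonoidHom.mulLeft μ).comp K0.subtype)
  have hχ : ∀ c : K0, χ c = Ψ (μ * c.1) := fun c => rfl
  have hχ0 : ∑ c, χ c = 0 := by
    rw [AddChar.sum_eq_zero_iff_ne_zero, AddChar.ne_zero_iff]
    refine ⟨⟨c0, (hK0 c0).2 hc0⟩, ?_⟩
    rw [hχ, hΨμ _ hc0]
    exact hψ0
  let ν : F → K0 := fun a => ⟨a * a ^ q, (hK0 _).2 (norm_fixed hK a)⟩
  have hfib : ∀ c : K0, (Finset.univ.filter (fun a => ν a = c)).card = if c = 0 then 1 else q + 1 := by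
    intro c
    split_ifs with hc
    · rw [Finset.card_eq_one]
      refine ⟨0, ?_⟩
      ext a
      rw [Finset.mem_filter, Finset.mem_singleton, hc]
      constructor
      · rintro ⟨-, h⟩
        have h1 : a * a ^ q = 0 := congrArg Subtype.val h
        rcases mul_eq_zero.1 h1 with h | h
        · exact h
        · exact pow_eq_zero_iff (by omega) |>.1 h
      · rintro rfl
        refine ⟨Finset.mem_univ _, Subtype.ext ?_⟩
        change (0 : F) * 0 ^ q = 0
        rw [zero_mul]
    · have hc' : c.1 ≠ 0 := fun h0 => hc (Subtype.ext h0)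
      have h1 := card_norm_eq hK c.1 hc' ((hK0 _).1 c.2)
      rw [Nat.card_eq_fintype_card, Fintype.card_subtype] at h1
      rw [← h1]
      congr 1
      ext a
      rw [Finset.mem_filter, Finset.mem_filter, pow_succ']
      constructor
      · rintro ⟨-, h⟩
        exact ⟨Finset.mem_univ _, congrArg Subtype.val h⟩
      · rintro ⟨-, h⟩
        exact ⟨Finset.mem_univ _, Subtype.ext h⟩
  have hSneg : ∑ a, f a = -(q : ℂ) := by
    have h1 : ∑ a, f a = ∑ c : K0, ∑ a ∈ Finset.univ.filter (fun a => ν a = c), f a :=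
      (Finset.sum_fiberwise Finset.univ ν f).symm
    have h3 : ∀ c : K0, ∑ a ∈ Finset.univ.filter (fun a => ν a = c), f a =
        ((q : ℂ) + 1) * χ c - (if c = 0 then (q : ℂ) else 0) := by
      intro c
      have h4 : ∀ a ∈ Finset.univ.filter (fun a => ν a = c), f a = χ c := by
        intro a ha
        rw [← (Finset.mem_filter.1 ha).2]
        rfl
      rw [Finset.sum_congr rfl h4, Finset.sum_const, hfib c, nsmul_eq_mul]
      split_ifs with hc
      · rw [hc, AddChar.map_zero_eq_one]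
        push_cast
        ring
      · push_cast
        ring
    rw [h1, Finset.sum_congr rfl (fun c _ => h3 c), Finset.sum_sub_distrib, ← Finset.mul_sum, hχ0]
    simp
  rw [hSq] at hSneg
  have h0 : (q : ℂ) = 0 := by linear_combination hSneg / 2
  have : q = 0 := by exact_mod_cast h0
  omega

end field

section group

variable {F : Type*} [Field F] [Fintype F] {q : ℕ} {G : Type*} [Group G]

theorem Coord.aut_fix_center (C : Coord F q G) (hK : Fintype.card F = q ^ 2) (h2 : (2 : F) = 0)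
    (τ : G ≃* G) (hτ : ∀ g, C.fa (τ (τ g)) = C.fa g) (z : G) (hz : z ∈ Subgroup.center G) : τ z = z := by
  classical
  have hq := two_le_q hK
  have hcen : ∀ z, C.fa z = 0 → C.fa (τ z) = 0 := by
    intro z hz
    rw [← C.mem_center_iff hK h2] at hz ⊢
    rw [Subgroup.mem_center_iff] at hz ⊢
    intro g
    have := congrArg τ (hz (τ.symm g))
    rwa [map_mul, map_mul, MulEquiv.apply_symm_apply] at this
  have hfa : ∀ g h, C.fa g = C.fa h → C.fa (τ g) = C.fa (τ h) := by
    intro g h e
    have h1 : C.fa (g⁻¹ * h) = 0 := by rw [C.fa_mul, C.fa_inv, e]; ring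
    have h3 := hcen _ h1
    rw [map_mul, map_inv, C.fa_mul, C.fa_inv] at h3
    linear_combination -h3
  choose sec hsec using C.exists_fa hK h2
  let T : F →+ F := AddMonoidHom.mk' (fun a => C.fa (τ (sec a))) (by
    intro a b
    rw [hfa (sec (a + b)) (sec a * sec b) (by rw [C.fa_mul, hsec, hsec, hsec]), map_mul, C.fa_mul])
  have hTdef : ∀ a, T a = C.fa (τ (sec a)) := fun a => rfl
  have hT : ∀ a, T (T a) = a := by
    intro a
    rw [hTdef (T a), hfa (sec (T a)) (τ (sec a)) (by rw [hsec, hTdef]), hτ, hsec]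
  let L : F → F := fun c => if h : c + c ^ q = 0 * 0 ^ q then C.fb (τ (C.mkE 0 c h)) else 0
  have hLz : ∀ z, C.fa z = 0 → L (C.fb z) = C.fb (τ z) := by
    intro z hz
    have h : C.fb z + C.fb z ^ q = 0 * 0 ^ q := by
      have := C.rel z
      rwa [hz] at this
    have e : C.mkE 0 (C.fb z) h = z := C.ext _ _ (by rw [C.fa_mk, hz]) (C.fb_mk _ _ _)
    change (if h : C.fb z + C.fb z ^ q = 0 * 0 ^ q then C.fb (τ (C.mkE 0 (C.fb z) h)) else 0) = _
    rw [dif_pos h, e]
  have hL : ∀ c d, c ^ q = c → d ^ q = d → L (c + d) = L c + L d := by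
    intro c d hc hd
    obtain ⟨x, hx1, hx2⟩ := C.surj 0 c (by rw [hc, zero_mul]; exact add_self' h2 c)
    obtain ⟨y, hy1, hy2⟩ := C.surj 0 d (by rw [hd, zero_mul]; exact add_self' h2 d)
    have h1 : C.fa (x * y) = 0 := by rw [C.fa_mul, hx1, hy1, add_zero]
    have h3 : C.fb (x * y) = c + d := by rw [C.fb_mul, hx1, hx2, hy2, hy1, mul_zero, add_zero]
    rw [← h3, hLz _ h1, ← hx2, ← hy2, hLz _ hx1, hLz _ hy1, map_mul, C.fb_mul, hcen _ hy1, mul_zero, add_zero]
  have hN : ∀ a, L (a * a ^ q) = T a * T a ^ q := by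
    intro a
    have h1 : C.fa (sec a * sec a) = 0 := C.fa_sq h2 _
    have h3 : C.fb (sec a * sec a) = a * a ^ q := by rw [C.fb_sq h2, hsec, mul_comm]
    rw [← h3, hLz _ h1, map_mul, C.fb_sq h2, hTdef, mul_comm]
  have hz0 := (C.mem_center_iff hK h2 z).1 hz
  have hzq : C.fb z ^ q = C.fb z := by
    have := C.rel z
    rw [hz0, zero_mul] at this
    linear_combination this - C.fb z * h2
  have h5 := key hK h2 T hT L hL hN (C.fb z) hzq
  rw [hLz z hz0] at h5
  exact C.ext _ _ (by rw [hcen z hz0, hz0]) h5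

end group

end Cfsg.Agent.Lib.Helper65.SU3E
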