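import Mathlib
import Cfsg.Agent.Lib.Helper65.UnipCent

set_option autoImplicit false

/-! Elements of order 3 of `SL₂(5)` inside `Sp₄(3)`. -/

namespace Cfsg.Agent.Lib.Helper65.Sp43

open Module

section lin

variable {F V : Type*} [Field F] [AddCommGroup V] [Module F V] [FiniteDimensional F V]

theorem finrank_ker_mul_le (f g : V →ₗ[F] V) :
    finrank F (LinearMap.ker (f * g)) ≤ finrank F (LinearMap.ker f) + finrank F (LinearMap.ker g) := by
  set K := LinearMap.ker (f * g) with hK
  let g' : K →ₗ[F] V := g.domRestrict K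
  have h1 := LinearMap.finrank_range_add_finrank_ker g'
  have h2 : finrank F (LinearMap.range g') ≤ finrank F (LinearMap.ker f) := by
    apply Submodule.finrank_mono
    rintro _ ⟨w, rfl⟩
    have : (w : V) ∈ LinearMap.ker (f * g) := w.2
    rw [LinearMap.mem_ker] at this
    exact this
  have h3 : finrank F (LinearMap.ker g') ≤ finrank F (LinearMap.ker g) := by
    rw [← Submodule.finrank_map_subtype_eq K (LinearMap.ker g')]
    apply Submodule.finrank_mono
    rintro _ ⟨w, hw, rfl⟩
    exact hw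
  omega

theorem two_le_finrank_ker (hV : finrank F V = 4) (u : V →ₗ[F] V) (hu : u ^ 3 = 0) :
    2 ≤ finrank F (LinearMap.ker u) := by
  have h1 := finrank_ker_mul_le u (u * u)
  have h2 := finrank_ker_mul_le u u
  have h3 : LinearMap.ker (u * (u * u)) = ⊤ := by
    have : u * (u * u) = 0 := by rw [← hu]; noncomm_ring
    rw [this]; exact LinearMap.ker_zero
  rw [h3, finrank_top, hV] at h1
  omega

end lin

section core

variable {F V : Type*} [Field F] [Fintype F] [AddCommGroup V] [Module F V] [FiniteDimensional F V]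

theorem sub_one_pow_three (hF : Fintype.card F = 3) (a : V →ₗ[F] V) (ha : a ^ 3 = 1) :
    (a - 1) ^ 3 = 0 := by
  have h3 : (3 : F) = 0 := by
    have := Nat.cast_card_eq_zero F
    rw [hF] at this
    exact_mod_cast this
  have h3' : (3 : V →ₗ[F] V) = 0 := by
    ext v
    have : (3 : V →ₗ[F] V) v = (3 : F) • v := by
      have h : (3 : V →ₗ[F] V) = (3 : F) • (1 : V →ₗ[F] V) := by
        rw [show (3 : F) = ((3 : ℕ) : F) by norm_num, Nat.cast_smul_eq_nsmul]
        simp
      rw [h]; rfl
    rw [this, h3, zero_smul]; rfl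
  have : (a - 1) ^ 3 = a ^ 3 - 1 - 3 * (a ^ 2 - a) := by noncomm_ring
  rw [this, ha, h3']
  simp

theorem core (hF : Fintype.card F = 3) (hV : finrank F V = 4) (a a' : V →ₗ[F] V)
    (ha : a ^ 3 = 1) (ha' : a' ^ 3 = 1) (ha1 : a ≠ 1)
    (hz : ∀ v, ((a * a') ^ 2) v = v → v = 0)
    (B : V →ₗ[F] V →ₗ[F] F) (hB : ∀ v w, B (a v) (a w) = B v w) (halt : ∀ v, B v v = 0) :
    finrank F (LinearMap.ker (a - 1)) = 2 ∧ ∀ v w, a v = v → a w = w → B v w = 0 := by
  have hu := sub_one_pow_three hF a ha
  have hu' := sub_one_pow_three hF a' ha'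
  have h2 := two_le_finrank_ker hV _ hu
  have h2' := two_le_finrank_ker hV _ hu'
  have hle : finrank F (LinearMap.ker (a - 1)) ≤ 4 := hV ▸ Submodule.finrank_le _
  have hne4 : finrank F (LinearMap.ker (a - 1)) ≠ 4 := by
    intro h
    have : LinearMap.ker (a - 1) = ⊤ := Submodule.eq_top_of_finrank_eq (h.trans hV.symm)
    rw [LinearMap.ker_eq_top, sub_eq_zero] at this
    exact ha1 this
  have hne3 : finrank F (LinearMap.ker (a - 1)) ≠ 3 := by
    intro h
    have h5 := Submodule.finrank_sup_add_finrank_inf_eq (LinearMap.ker (a - 1)) (LinearMap.ker (a' - 1))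
    have h6 : finrank F (LinearMap.ker (a - 1) ⊔ LinearMap.ker (a' - 1) : Submodule F V) ≤ 4 :=
      hV ▸ Submodule.finrank_le _
    have h7 : 0 < finrank F (LinearMap.ker (a - 1) ⊓ LinearMap.ker (a' - 1) : Submodule F V) := by
      omega
    rw [Module.finrank_pos_iff_exists_ne_zero] at h7
    obtain ⟨⟨v, hv1, hv2⟩, hv0⟩ := h7
    apply hv0
    apply Subtype.ext
    apply hz
    have hv1' : v ∈ LinearMap.ker (a - 1) := hv1
    have hv2' : v ∈ LinearMap.ker (a' - 1) := hv2
    rw [LinearMap.mem_ker, LinearMap.sub_apply, sub_eq_zero] at hv1' hv2'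
    have e1 : a v = v := hv1'
    have e2 : a' v = v := hv2'
    simp [pow_two, e1, e2]
  have hfin : finrank F (LinearMap.ker (a - 1)) = 2 := by omega
  refine ⟨hfin, ?_⟩
  -- a nonzero vector in the image and the kernel
  have hperp : ∀ v w, a w = w → B ((a - 1) v) w = 0 := by
    intro v w hw
    rw [LinearMap.sub_apply, map_sub, LinearMap.sub_apply]
    nth_rewrite 1 [← hw]
    rw [hB]
    simp
  obtain ⟨z, hz0, hzk, hzp⟩ : ∃ z : V, z ≠ 0 ∧ a z = z ∧ ∀ w, a w = w → B z w = 0 := by
    obtain ⟨v, hv⟩ : ∃ v, (a - 1) v ≠ 0 := by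
      by_contra h
      push Not at h
      apply ha1
      rw [← sub_eq_zero]
      ext v
      exact h v
    by_cases h2 : (a - 1) ((a - 1) v) = 0
    · refine ⟨(a - 1) v, hv, ?_, hperp v⟩
      rw [LinearMap.sub_apply, sub_eq_zero] at h2
      exact h2
    · refine ⟨(a - 1) ((a - 1) v), h2, ?_, hperp _⟩
      have : ((a - 1) ^ 3 : V →ₗ[F] V) v = 0 := by rw [hu]; rfl
      rw [pow_succ', pow_two] at this
      have h3 : (a - 1) ((a - 1) ((a - 1) v)) = 0 := this
      rw [LinearMap.sub_apply, sub_eq_zero] at h3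
      exact h3
  have hskew : ∀ v w, B v w = - B w v := by
    intro v w
    have := halt (v + w)
    simp only [map_add, LinearMap.add_apply, halt, zero_add, add_zero] at this
    exact eq_neg_of_add_eq_zero_right this
  intro v w hv hw
  -- three vectors in a 2-dimensional space
  have hmem : ∀ y, a y = y → y ∈ LinearMap.ker (a - 1) := by
    intro y hy
    rw [LinearMap.mem_ker, LinearMap.sub_apply, sub_eq_zero]
    exact hy
  let f : Fin 3 → LinearMap.ker (a - 1) := ![⟨z, hmem z hzk⟩, ⟨v, hmem v hv⟩, ⟨w, hmem w hw⟩]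
  have hdep : ¬ LinearIndependent F f := by
    intro h
    have := h.fintype_card_le_finrank
    rw [hfin] at this
    simp at this
  rw [Fintype.not_linearIndependent_iff] at hdep
  obtain ⟨c, hc, i, hi⟩ := hdep
  have hc' : c 0 • z + c 1 • v + c 2 • w = 0 := by
    have := congrArg Subtype.val hc
    simpa [Fin.sum_univ_three, f] using this
  have e1 : c 2 * B v w = 0 := by
    have := congrArg (B v) hc'
    simp only [map_add, map_smul, smul_eq_mul, halt, map_zero, mul_zero, add_zero] at this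
    rw [hskew v z, hzp v hv] at this
    simpa using this
  rcases mul_eq_zero.mp e1 with h | h
  · rw [h, zero_smul, add_zero] at hc'
    by_cases h1 : c 1 = 0
    · rw [h1, zero_smul, add_zero] at hc'
      have h0 : c 0 = 0 := by
        rcases smul_eq_zero.mp hc' with h0 | h0
        · exact h0
        · exact absurd h0 hz0
      exfalso
      apply hi
      fin_cases i
      · exact h0
      · exact h1
      · exact h
    · have : c 1 * B v w = 0 := by
        have := congrArg (fun y => B y w) hc'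
        simp only [map_add, map_smul, LinearMap.add_apply, LinearMap.smul_apply, smul_eq_mul,
          map_zero, LinearMap.zero_apply] at this
        rw [hzp w hw] at this
        simpa using this
      exact (mul_eq_zero.mp this).resolve_left h1
  · exact h

theorem nofix (hF : Fintype.card F = 3) (hV : finrank F V = 4) (Y Z : V →ₗ[F] V)
    (hY : Y ^ 5 = 1) (hY1 : Y ≠ 1) (hZ1 : Z ≠ 1) (hc : Commute Y Z) :
    ∀ v, Z v = v → v = 0 := by
  have : Fact (Nat.Prime 5) := ⟨by norm_num⟩
  have key : ∀ k, k ≤ 4 → 3 ^ k ≡ 1 [MOD 5] → k = 0 ∨ k = 4 := by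
    intro k hk
    interval_cases k <;> decide
  have hY0 : LinearMap.ker (Y - 1) = ⊥ := by
    have h1 := UnipCent.modEq_of_invariant Y hY ⊤ (fun _ _ => trivial)
    rw [finrank_top, hV, hF, top_inf_eq] at h1
    have hle : finrank F (LinearMap.ker (Y - 1)) ≤ 4 := hV ▸ Submodule.finrank_le _
    have h2 : 3 ^ finrank F (LinearMap.ker (Y - 1)) ≡ 1 [MOD 5] := h1.symm.trans (by decide)
    rcases key _ hle h2 with h | h
    · exact Submodule.finrank_eq_zero.mp h
    · exfalso
      have : LinearMap.ker (Y - 1) = ⊤ := Submodule.eq_top_of_finrank_eq (h.trans hV.symm)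
      rw [LinearMap.ker_eq_top, sub_eq_zero] at this
      exact hY1 this
  have hZ0 : LinearMap.ker (Z - 1) = ⊥ := by
    have h1 := UnipCent.modEq_of_invariant Y hY (LinearMap.ker (Z - 1)) (by
      intro w hw
      rw [LinearMap.mem_ker, LinearMap.sub_apply, sub_eq_zero] at hw ⊢
      have hw' : Z w = w := hw
      show Z (Y w) = Y w
      have : (Z * Y) w = (Y * Z) w := by rw [hc.eq]
      rw [Module.End.mul_apply, Module.End.mul_apply, hw'] at this
      exact this)
    rw [hY0, inf_bot_eq, finrank_bot, hF, pow_zero] at h1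
    have hle : finrank F (LinearMap.ker (Z - 1)) ≤ 4 := hV ▸ Submodule.finrank_le _
    rcases key _ hle h1 with h | h
    · exact Submodule.finrank_eq_zero.mp h
    · exfalso
      have : LinearMap.ker (Z - 1) = ⊤ := Submodule.eq_top_of_finrank_eq (h.trans hV.symm)
      rw [LinearMap.ker_eq_top, sub_eq_zero] at this
      exact hZ1 this
  intro v hv
  have : v ∈ LinearMap.ker (Z - 1) := by
    rw [LinearMap.mem_ker, LinearMap.sub_apply, sub_eq_zero]
    exact hv
  rw [hZ0] at this
  exact this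

end core

section sl2

open Matrix

variable {K : Type*} [Field K]

theorem sq_eq_neg_one (w : SpecialLinearGroup (Fin 2) K) (h : w 0 0 + w 1 1 = 0) :
    ((w ^ 2 : SpecialLinearGroup (Fin 2) K) : Matrix (Fin 2) (Fin 2) K) = -1 := by
  have hdet := w.2
  rw [Matrix.det_fin_two] at hdet
  change (w : Matrix (Fin 2) (Fin 2) K) ^ 2 = -1
  rw [pow_two]
  ext i j
  fin_cases i <;> fin_cases j <;>
    simp only [Matrix.mul_apply, Fin.sum_univ_two, Fin.zero_eta, Fin.mk_one, Fin.isValue,
      Matrix.neg_apply, Matrix.one_apply_eq, ne_eq, zero_ne_one, one_ne_zero, not_false_eq_true,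
      Matrix.one_apply_ne, neg_zero]
  · linear_combination (w 0 0) * h - hdet
  · linear_combination (w 0 1) * h
  · linear_combination (w 1 0) * h
  · linear_combination (w 1 1) * h - hdet

theorem cube_entries (w : SpecialLinearGroup (Fin 2) K) :
    (w ^ 3 : SpecialLinearGroup (Fin 2) K) 0 0 =
        w 0 0 * ((w 0 0 + w 1 1) ^ 2 - 1) - (w 0 0 + w 1 1) ∧
    (w ^ 3 : SpecialLinearGroup (Fin 2) K) 0 1 = w 0 1 * ((w 0 0 + w 1 1) ^ 2 - 1) ∧
    (w ^ 3 : SpecialLinearGroup (Fin 2) K) 1 0 = w 1 0 * ((w 0 0 + w 1 1) ^ 2 - 1) ∧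
    (w ^ 3 : SpecialLinearGroup (Fin 2) K) 1 1 =
        w 1 1 * ((w 0 0 + w 1 1) ^ 2 - 1) - (w 0 0 + w 1 1) := by
  have hdet := w.2
  rw [Matrix.det_fin_two] at hdet
  have e : ((w ^ 3 : SpecialLinearGroup (Fin 2) K) : Matrix (Fin 2) (Fin 2) K) =
      (w : Matrix (Fin 2) (Fin 2) K) * w * w := by
    change (w : Matrix (Fin 2) (Fin 2) K) ^ 3 = _
    rw [pow_succ, pow_two]
  rw [e]
  simp only [Matrix.mul_apply, Fin.sum_univ_two]
  refine ⟨?_, ?_, ?_, ?_⟩
  · linear_combination (-(2 * w 0 0 + w 1 1)) * hdet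
  · linear_combination (-(w 0 1)) * hdet
  · linear_combination (-(w 1 0)) * hdet
  · linear_combination (-(2 * w 1 1 + w 0 0)) * hdet

theorem cube_eq_one (w : SpecialLinearGroup (Fin 2) K) (h : w 0 0 + w 1 1 = -1) :
    w ^ 3 = 1 := by
  obtain ⟨h00, h01, h10, h11⟩ := cube_entries w
  rw [h] at h00 h01 h10 h11
  ext i j
  fin_cases i <;> fin_cases j
  · simpa using h00
  · simpa using h01
  · simpa using h10
  · simpa using h11

theorem trace_of_order_three (w : SpecialLinearGroup (Fin 2) K) (h3 : w ^ 3 = 1) (h1 : w ≠ 1) :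
    w 0 0 + w 1 1 = -1 := by
  have hdet := w.det_coe
  rw [Matrix.det_fin_two] at hdet
  obtain ⟨h00, h01, h10, h11⟩ := cube_entries w
  rw [h3] at h00 h01 h10 h11
  have o00 : (1 : SpecialLinearGroup (Fin 2) K) 0 0 = 1 := rfl
  have o01 : (1 : SpecialLinearGroup (Fin 2) K) 0 1 = 0 := rfl
  have o10 : (1 : SpecialLinearGroup (Fin 2) K) 1 0 = 0 := rfl
  have o11 : (1 : SpecialLinearGroup (Fin 2) K) 1 1 = 1 := rfl
  rw [o00] at h00
  rw [o01] at h01
  rw [o10] at h10
  rw [o11] at h11
  by_cases ht : (w 0 0 + w 1 1) ^ 2 - 1 = 0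
  · rw [ht] at h00
    linear_combination h00
  · exfalso
    have hb : w 0 1 = 0 := (mul_eq_zero.mp h01.symm).resolve_right ht
    have hc : w 1 0 = 0 := (mul_eq_zero.mp h10.symm).resolve_right ht
    have had : w 0 0 = w 1 1 := by
      apply mul_right_cancel₀ ht
      linear_combination h11 - h00
    rw [hb, hc, ← had] at hdet
    rw [← had] at h00
    have ha : w 0 0 = 1 := by
      linear_combination (-1 : K) * h00 - (4 * w 0 0) * hdet
    apply h1
    ext i j
    fin_cases i <;> fin_cases j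
    · exact ha
    · exact hb
    · exact hc
    · exact had ▸ ha

theorem sl2_data [Fintype K] (hK : Fintype.card K = 5) (x : SpecialLinearGroup (Fin 2) K)
    (hx : orderOf x = 3) :
    ∃ x' y : SpecialLinearGroup (Fin 2) K, x' ^ 3 = 1 ∧ y ^ 5 = 1 ∧ y ≠ 1 ∧ (x * x') ^ 2 ≠ 1 ∧
      Commute y ((x * x') ^ 2) := by
  have h5 : (5 : K) = 0 := by
    have := Nat.cast_card_eq_zero K
    rw [hK] at this
    exact_mod_cast this
  have h2 : (2 : K) ≠ 0 := by
    intro h
    have : (1 : K) = 0 := by linear_combination h5 - 2 * h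
    exact one_ne_zero this
  have hx3 : x ^ 3 = 1 := hx ▸ pow_orderOf_eq_one x
  have hx1 : x ≠ 1 := by
    intro h
    rw [h, orderOf_one] at hx
    omega
  have ht := trace_of_order_three x hx3 hx1
  have hdet := x.det_coe
  rw [Matrix.det_fin_two] at hdet
  -- the partner
  obtain ⟨x', hx', htr⟩ : ∃ x' : SpecialLinearGroup (Fin 2) K, x' 0 0 + x' 1 1 = -1 ∧
      (x * x') 0 0 + (x * x') 1 1 = 0 := by
    by_cases hc : x 1 0 = 0
    · by_cases hb : x 0 1 = 0
      · exfalso
        rw [hb, hc] at hdet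
        have ha : x 0 0 ^ 2 + x 0 0 + 1 = 0 := by
          linear_combination (x 0 0) * ht - hdet
        have ha3 : x 0 0 ^ 3 = 1 := by linear_combination (x 0 0 - 1) * ha
        have ha5 : x 0 0 ^ 5 = x 0 0 := by
          have := FiniteField.pow_card (x 0 0)
          rwa [hK] at this
        have ha0 : x 0 0 ≠ 0 := by
          intro h
          rw [h] at ha3
          simp at ha3
        have ha1 : x 0 0 = 1 := by
          apply mul_left_cancel₀ ha0
          linear_combination (-(x 0 0 ^ 2)) * ha3 + ha5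
        rw [ha1] at ha
        have : (1 : K) = 0 := by linear_combination 2 * ha - h5
        exact one_ne_zero this
      · refine ⟨⟨!![x 0 0 - 2, x 0 1; x 1 0 + 2 * (x 0 0 - x 1 1) / x 0 1 - 4 / x 0 1, x 1 1 + 2], ?_⟩,
          ?_, ?_⟩
        · rw [Matrix.det_fin_two_of]
          field_simp
          linear_combination hdet
        · show x 0 0 - 2 + (x 1 1 + 2) = -1
          linear_combination ht
        · show ((x : Matrix (Fin 2) (Fin 2) K) * !![x 0 0 - 2, x 0 1; x 1 0 + 2 * (x 0 0 - x 1 1) / x 0 1 - 4 / x 0 1, x 1 1 + 2]) 0 0 + ((x : Matrix (Fin 2) (Fin 2) K) * !![x 0 0 - 2, x 0 1; x 1 0 + 2 * (x 0 0 - x 1 1) / x 0 1 - 4 / x 0 1, x 1 1 + 2]) 1 1 = 0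
          simp only [Matrix.mul_apply, Fin.sum_univ_two, Matrix.of_apply, Matrix.cons_val_zero,
            Matrix.cons_val_one, Matrix.cons_val', Matrix.cons_val_fin_one]
          field_simp
          linear_combination (x 0 0 + x 1 1 - 1) * ht - 2 * hdet - h5
    · refine ⟨⟨!![x 0 0 + 2, x 0 1 + 2 * (x 1 1 - x 0 0) / x 1 0 - 4 / x 1 0; x 1 0, x 1 1 - 2], ?_⟩,
          ?_, ?_⟩
      · rw [Matrix.det_fin_two_of]
        field_simp
        linear_combination hdet
      · show x 0 0 + 2 + (x 1 1 - 2) = -1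
        linear_combination ht
      · show ((x : Matrix (Fin 2) (Fin 2) K) * !![x 0 0 + 2, x 0 1 + 2 * (x 1 1 - x 0 0) / x 1 0 - 4 / x 1 0; x 1 0, x 1 1 - 2]) 0 0 + ((x : Matrix (Fin 2) (Fin 2) K) * !![x 0 0 + 2, x 0 1 + 2 * (x 1 1 - x 0 0) / x 1 0 - 4 / x 1 0; x 1 0, x 1 1 - 2]) 1 1 = 0
        simp only [Matrix.mul_apply, Fin.sum_univ_two, Matrix.of_apply, Matrix.cons_val_zero,
            Matrix.cons_val_one, Matrix.cons_val', Matrix.cons_val_fin_one]
        field_simp
        linear_combination (x 0 0 + x 1 1 - 1) * ht - 2 * hdet - h5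
  have hz := sq_eq_neg_one (x * x') htr
  refine ⟨x', ⟨!![1, 1; 0, 1], by simp [Matrix.det_fin_two_of]⟩, cube_eq_one x' hx', ?_, ?_, ?_, ?_⟩
  · apply Subtype.ext
    change (!![1, 1; 0, 1] : Matrix (Fin 2) (Fin 2) K) ^ 5 = 1
    have : ∀ k : ℕ, (!![1, 1; 0, 1] : Matrix (Fin 2) (Fin 2) K) ^ k = !![1, (k : K); 0, 1] := by
      intro k
      induction k with
      | zero => simp [Matrix.one_fin_two]
      | succ k ih =>
        rw [pow_succ, ih, Matrix.mul_fin_two]
        simp [add_comm]
    rw [this]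
    simp [Matrix.one_fin_two, h5]
  · intro h
    have := congrArg (fun m : SpecialLinearGroup (Fin 2) K => m 0 1) h
    exact one_ne_zero this
  · intro h
    rw [h] at hz
    have := congrFun (congrFun hz 0) 0
    have e : (1 : K) = -1 := this
    apply h2
    linear_combination e
  · apply Subtype.ext
    change (!![1, 1; 0, 1] : Matrix (Fin 2) (Fin 2) K) * ((x * x') ^ 2 : SpecialLinearGroup (Fin 2) K) =
      ((x * x') ^ 2 : SpecialLinearGroup (Fin 2) K) * (!![1, 1; 0, 1] : Matrix (Fin 2) (Fin 2) K)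
    rw [hz]
    simp

end sl2

end Cfsg.Agent.Lib.Helper65.Sp43
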